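import Cfsg.Agent.MacWilliams.Full

/-!
The index bound: sections of exponent two have order at most 16.
-/

set_option autoImplicit false

namespace Cfsg.Agent.MacWilliams

variable {P : Type*} [Group P]

/-- The centralizer of `A`. -/
def centA (A : Subgroup P) : Subgroup P where
  carrier := {x | IsFour.Cent A x}
  one_mem' := fun a _ => by simp
  mul_mem' := IsFour.cent_mul
  inv_mem' := IsFour.cent_inv

/-- The centralizer of the involutions of `A`. -/
def fixW (A : Subgroup P) : Subgroup P where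
  carrier := {x | CentW A x}
  one_mem' := fun w _ => by simp
  mul_mem' := IsFour.centW_mul
  inv_mem' := IsFour.centW_inv

theorem card_eq_ker_mul_map {G V : Type*} [Group G] [Group V] (φ : G →* V) (H : Subgroup G) :
    Nat.card H = Nat.card (φ.ker.subgroupOf H) * Nat.card (H.map φ) := by
  have h1 := Subgroup.card_eq_card_quotient_mul_card_subgroup (φ.comp H.subtype).ker
  rw [Nat.card_congr (QuotientGroup.quotientKerEquivRange (φ.comp H.subtype)).toEquiv] at h1
  have h2 : (φ.comp H.subtype).range = H.map φ := by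
    rw [MonoidHom.range_comp, Subgroup.range_subtype]
  rw [h2] at h1
  rw [h1, mul_comm]
  rfl

theorem index_le_of_range_le {G V : Type*} [Group G] [Finite G] [Group V] [Finite V]
    (φ δ : G →* V) (Z : Subgroup G) (hker : φ.ker ≤ Z) (hδ : δ.range ≤ Z.map φ) :
    Z.index ≤ Nat.card (δ.ker.map φ) := by
  have h1 : Nat.card G = Nat.card δ.ker * Nat.card δ.range := by
    rw [Subgroup.card_eq_card_quotient_mul_card_subgroup δ.ker,
      Nat.card_congr (QuotientGroup.quotientKerEquivRange δ).toEquiv, mul_comm]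
  have h2 := card_eq_ker_mul_map φ δ.ker
  have h3 : Nat.card (φ.ker.subgroupOf δ.ker) ≤ Nat.card φ.ker :=
    Nat.card_le_card_of_injective (fun x => (⟨x.1.1, x.2⟩ : φ.ker))
      (fun x y hxy => Subtype.ext (Subtype.ext (congrArg Subtype.val hxy :)))
  have h4 : Nat.card Z = Nat.card φ.ker * Nat.card (Z.map φ) := by
    rw [card_eq_ker_mul_map φ Z, Nat.card_congr (Subgroup.subgroupOfEquivOfLe hker).toEquiv]
  have h5 : Nat.card δ.range ≤ Nat.card (Z.map φ) :=
    Nat.card_le_card_of_injective (Subgroup.inclusion hδ) (Subgroup.inclusion_injective hδ)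
  have h6 := Z.index_mul_card
  refine Nat.le_of_mul_le_mul_right ?_ (Nat.card_pos (α := Z))
  calc Z.index * Nat.card Z = Nat.card δ.ker * Nat.card δ.range := h6.trans h1
    _ ≤ Nat.card φ.ker * Nat.card (δ.ker.map φ) * Nat.card (Z.map φ) := by
      rw [h2]; gcongr
    _ = Nat.card (δ.ker.map φ) * Nat.card Z := by rw [h4]; ring

theorem pow_two_step {k l : ℕ} (h1 : 2 ^ l ≤ 2 ^ (k + 1)) (h2 : 2 ^ l ≠ 2 ^ (k + 1)) :
    2 ^ l ≤ 2 ^ k := by
  have h3 : l ≤ k + 1 := (Nat.pow_le_pow_iff_right (le_refl 2)).1 h1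
  have h4 : l ≠ k + 1 := fun hh => h2 (by rw [hh])
  exact Nat.pow_le_pow_right (by omega) (by omega)

namespace IsFour

variable {A : Subgroup P}

/-- The involutions of `A` as a subgroup. -/
def invol (h : IsFour A) : Subgroup P where
  carrier := {w | InW A w}
  one_mem' := inW_one
  mul_mem' := h.inW_mul
  inv_mem' := fun {w} hw => by
    show InW A w⁻¹
    rw [inW_inv hw]; exact hw

instance invCommGroup (h : IsFour A) : CommGroup h.invol :=
  { (inferInstance : Group h.invol) with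
    mul_comm := fun u v => Subtype.ext (h.comm _ u.2.1 _ v.2.1) }

theorem invol_sq (h : IsFour A) (u : h.invol) : u * u = 1 := Subtype.ext u.2.2

theorem invol_inv (h : IsFour A) (u : h.invol) : u⁻¹ = u :=
  inv_eq_of_mul_eq_one_right (h.invol_sq u)

/-- Commutation with a fixed element of `A`. -/
def brHom (h : IsFour A) {a : P} (ha : a ∈ A) : fixW A →* h.invol where
  toFun x := ⟨br x.1 a, h.br_inW x.2 ha⟩
  map_one' := Subtype.ext (by simp [br])
  map_mul' x y := Subtype.ext (h.br_mul x.2 y.2 ha)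

/-- Conjugation on the involutions of `A`. -/
def conjHom (h : IsFour A) (g : P) : h.invol →* h.invol where
  toFun w := ⟨g * w.1 * g⁻¹, h.inW_conj w.2 g⟩
  map_one' := Subtype.ext (by simp)
  map_mul' u v := Subtype.ext (by
    show g * (u.1 * v.1) * g⁻¹ = g * u.1 * g⁻¹ * (g * v.1 * g⁻¹)
    group)

variable [Finite P]

theorem card_invol (h : IsFour A)
    (hE : ∀ B : Subgroup P, B.Normal → IsMulCommutative B → (∀ a ∈ B, a ^ 2 = 1) → Nat.card B ≤ 4) :
    Nat.card h.invol ≤ 4 :=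
  hE h.invol ⟨fun _ hw g => h.inW_conj hw g⟩
    ⟨⟨fun u v => Subtype.ext (h.comm _ u.2.1 _ v.2.1)⟩⟩
    (fun w hw => by rw [pow_two]; exact hw.2)

theorem cover' (h : IsFour A)
    (hE : ∀ B : Subgroup P, B.Normal → IsMulCommutative B → (∀ a ∈ B, a ^ 2 = 1) → Nat.card B ≤ 4)
    {e f : P} (he : InW A e) (hf : InW A f) (he1 : e ≠ 1) (hf1 : f ≠ 1) (hef : e ≠ f) :
    ∀ w, InW A w → w = 1 ∨ w = e ∨ w = f ∨ w = e * f := by
  classical
  intro w hw
  by_contra! hne
  obtain ⟨n1, n2, n3, n4⟩ := hne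
  have hef1 : e * f ≠ 1 := fun h1 => hef (by
    have := eq_inv_of_mul_eq_one_left h1
    rw [inW_inv hf] at this; exact this)
  let S : Finset h.invol :=
    {1, ⟨e, he⟩, ⟨f, hf⟩, ⟨e * f, h.inW_mul he hf⟩, ⟨w, hw⟩}
  have hS : S.card = 5 := by
    simp [S, Subtype.ext_iff, Ne.symm he1, Ne.symm hf1, Ne.symm hef1, hef, he1, hf1,
      Ne.symm n1, Ne.symm n2, Ne.symm n3, Ne.symm n4]
  haveI : Fintype h.invol := Fintype.ofFinite _
  have := Finset.card_le_univ S
  rw [hS, ← Nat.card_eq_fintype_card] at this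
  have := h.card_invol hE
  omega

theorem exists_central (h : IsFour A) (hP : IsPGroup 2 P) {w : P} (hw : InW A w) (hw1 : w ≠ 1) :
    ∃ e, InW A e ∧ e ≠ 1 ∧ ∀ g : P, g * e = e * g := by
  haveI : Fact (Nat.Prime 2) := ⟨Nat.prime_two⟩
  haveI : h.invol.Normal := ⟨fun _ hu g => h.inW_conj hu g⟩
  have hne : h.invol ≠ ⊥ := fun hb => hw1 (by
    have : w ∈ h.invol := hw
    rwa [hb, Subgroup.mem_bot] at this)
  obtain ⟨⟨e, he⟩, he1⟩ :=
    (Subgroup.ne_bot_iff_exists_ne_one.1 (PGroup.inf_center_ne_bot hP h.invol hne))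
  obtain ⟨he2, he3⟩ := Subgroup.mem_inf.1 he
  exact ⟨e, he2, fun h1 => he1 (Subtype.ext h1), Subgroup.mem_center_iff.1 he3⟩

/-- An element moving an involution of `A` swaps the two non-central ones. -/
theorem exists_swap (h : IsFour A) (hP : IsPGroup 2 P)
    (hE : ∀ B : Subgroup P, B.Normal → IsMulCommutative B → (∀ a ∈ B, a ^ 2 = 1) → Nat.card B ≤ 4)
    {g : P} (hg : ¬ CentW A g) :
    ∃ e f, InW A e ∧ InW A f ∧ e ≠ 1 ∧ f ≠ 1 ∧ e ≠ f ∧ (∀ x : P, x * e = e * x) ∧
      g * f * g⁻¹ = e * f := by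
  simp only [CentW, not_forall] at hg
  obtain ⟨f, hf, hgf⟩ := hg
  have hf1 : f ≠ 1 := fun hh => hgf (by simp [hh])
  obtain ⟨e, he, he1, hec⟩ := h.exists_central hP hf hf1
  have hef : e ≠ f := fun hh => hgf (hh ▸ hec g)
  refine ⟨e, f, he, hf, he1, hf1, hef, hec, ?_⟩
  rcases h.cover' hE he hf he1 hf1 hef _ (h.inW_conj hf g) with hh | hh | hh | hh
  · exact absurd (conj_eq_one_iff.1 hh) hf1
  · refine absurd ?_ hef
    calc e = g⁻¹ * e * g := by rw [mul_assoc, ← hec g, inv_mul_cancel_left]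
      _ = g⁻¹ * (g * f * g⁻¹) * g := by rw [hh]
      _ = f := by group
  · exact absurd (mul_inv_eq_iff_eq_mul.1 hh) hgf
  · exact hh

theorem fixW_index (h : IsFour A) (hP : IsPGroup 2 P)
    (hE : ∀ B : Subgroup P, B.Normal → IsMulCommutative B → (∀ a ∈ B, a ^ 2 = 1) → Nat.card B ≤ 4)
    (X : Subgroup P) : ((fixW A).subgroupOf X).index ≤ 2 := by
  by_cases hX : X ≤ fixW A
  · rw [Subgroup.subgroupOf_eq_top.2 hX, Subgroup.index_top]; omega
  obtain ⟨g, hgX, hg⟩ := SetLike.not_le_iff_exists.1 hX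
  obtain ⟨e, f, he, hf, he1, hf1, hef, hec, hgf⟩ := h.exists_swap hP hE (show ¬ CentW A g from hg)
  have cov := h.cover' hE he hf he1 hf1 hef
  have hfix : ∀ x : P, x * f * x⁻¹ = f → CentW A x := by
    intro x hx w hw
    have hxf : x * f = f * x := mul_inv_eq_iff_eq_mul.1 hx
    rcases cov w hw with rfl | rfl | rfl | rfl
    · simp
    · exact hec x
    · exact hxf
    · rw [← mul_assoc, hec x, mul_assoc, hxf, mul_assoc]
  have hmv : ∀ x : P, ¬ CentW A x → x * f * x⁻¹ = e * f := by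
    intro x hx
    rcases cov _ (h.inW_conj hf x) with hh | hh | hh | hh
    · exact absurd (conj_eq_one_iff.1 hh) hf1
    · refine absurd ?_ hef
      calc e = x⁻¹ * e * x := by rw [mul_assoc, ← hec x, inv_mul_cancel_left]
        _ = x⁻¹ * (x * f * x⁻¹) * x := by rw [hh]
        _ = f := by group
    · exact absurd (hfix x hh) hx
    · exact hh
  have hne : e * f ≠ f := fun hh => he1 (mul_eq_right.1 hh)
  refine le_of_eq (Subgroup.index_eq_two_iff.2 ⟨⟨g, hgX⟩, fun x => ?_⟩)
  simp only [Subgroup.mem_subgroupOf, Subgroup.coe_mul]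
  have e1 : x.1 * g * f * (x.1 * g)⁻¹ = e * (x.1 * f * x.1⁻¹) := by
    calc x.1 * g * f * (x.1 * g)⁻¹ = x.1 * (g * f * g⁻¹) * x.1⁻¹ := by group
      _ = (x.1 * e) * f * x.1⁻¹ := by rw [hgf]; group
      _ = e * (x.1 * f * x.1⁻¹) := by rw [hec x.1]; group
  by_cases hx : CentW A x.1
  · refine Or.inr ⟨hx, fun hxg => hne ?_⟩
    rw [conj_fix hx hf, conj_fix hxg hf] at e1
    exact e1.symm
  · refine Or.inl ⟨hfix _ ?_, hx⟩
    rw [e1, hmv _ hx, ← mul_assoc, he.2, one_mul]

/-- The squares of a section: the part inside the centralizer of `A`. -/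
theorem cent_part (h : IsFour A) (hP : IsPGroup 2 P)
    (hE : ∀ B : Subgroup P, B.Normal → IsMulCommutative B → (∀ a ∈ B, a ^ 2 = 1) → Nat.card B ≤ 4)
    (X M : Subgroup P) (hsq : ∀ x ∈ X, x * x ∈ M) :
    M.relIndex (X ⊓ centA A) ≤ 4 ∧ (M.relIndex (X ⊓ centA A) = 4 →
      ∀ m ∈ M, m ∈ X → Cent A m → ∃ v, Cent A v ∧ v * v = m) := by
  classical
  set Y := X ⊓ centA A with hY
  let Q : Subgroup Y := M.subgroupOf Y
  haveI : Fintype Y := Fintype.ofFinite _
  haveI : Fintype Q := Fintype.ofFinite _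
  haveI : Fintype h.invol := Fintype.ofFinite _
  let sq : Y → Q := fun y => ⟨y * y, hsq y.1 (Subgroup.mem_inf.1 y.2).1⟩
  have hfib : ∀ q ∈ Finset.univ.image sq,
      (Finset.univ.filter fun y => sq y = q).card ≤ 4 := by
    intro q hq
    obtain ⟨y0, -, rfl⟩ := Finset.mem_image.1 hq
    calc (Finset.univ.filter fun y => sq y = sq y0).card
        ≤ ((Finset.univ : Finset h.invol).image Subtype.val).card := by
          refine Finset.card_le_card_of_injOn (fun y => (y0 : P)⁻¹ * y) ?_ ?_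
          · intro y hy
            simp only [Finset.coe_filter, Set.mem_ofPred_eq, Finset.mem_univ, true_and] at hy
            have he : (y0 : P) * y0 = y * y :=
              (congrArg (fun q : Q => ((q : Y) : P)) hy).symm
            obtain ⟨h1, h2⟩ := h.sq_eq hP (Subgroup.mem_inf.1 y0.2).2 (Subgroup.mem_inf.1 y.2).2 he
            simp only [Finset.coe_image, Finset.coe_univ, Set.image_univ]
            exact ⟨⟨_, h1, h2⟩, rfl⟩
          · intro y _ y' _ hyy
            exact Subtype.ext (mul_left_cancel (hyy :))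
      _ ≤ (Finset.univ : Finset h.invol).card := Finset.card_image_le
      _ ≤ 4 := by rw [Finset.card_univ, ← Nat.card_eq_fintype_card]; exact h.card_invol hE
  have h1 := Finset.card_le_mul_card_image Finset.univ 4 hfib
  have h2 : Q.index * Nat.card Q = Nat.card Y := Q.index_mul_card
  have h3 : (Finset.univ.image sq).card ≤ Nat.card Q := by
    rw [Nat.card_eq_fintype_card]; exact Finset.card_le_univ _
  rw [Finset.card_univ, ← Nat.card_eq_fintype_card] at h1
  have h4 : M.relIndex Y = Q.index := rfl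
  have hpos : 0 < Nat.card Q := Nat.card_pos
  rw [h4]
  have hb : Q.index * Nat.card Q ≤ 4 * Nat.card Q := by omega
  refine ⟨Nat.le_of_mul_le_mul_right hb hpos, fun h5 m hmM hmX hmc => ?_⟩
  have h6 : Finset.univ.image sq = Finset.univ := by
    refine Finset.eq_univ_of_card _ (le_antisymm (Finset.card_le_univ _) ?_)
    rw [← Nat.card_eq_fintype_card]
    rw [h5] at h2
    omega
  let q : Q := ⟨⟨m, Subgroup.mem_inf.2 ⟨hmX, hmc⟩⟩, hmM⟩
  obtain ⟨y, -, hy⟩ := Finset.mem_image.1 (h6 ▸ Finset.mem_univ q : q ∈ Finset.univ.image sq)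
  exact ⟨y.1, (Subgroup.mem_inf.1 y.2).2, congrArg (fun q : Q => ((q : Y) : P)) hy⟩

/-- `A` has at most one nontrivial square. -/
theorem small_bound (h : IsFour A) (hP : IsPGroup 2 P)
    (hE : ∀ B : Subgroup P, B.Normal → IsMulCommutative B → (∀ a ∈ B, a ^ 2 = 1) → Nat.card B ≤ 4)
    {a : P} (ha : a ∈ A) (hone : ∀ c ∈ A, c * c = 1 ∨ c * c = a * a)
    (X : Subgroup P) (Z : Subgroup X) (hC : ∀ x : X, Cent A x.1 → x ∈ Z)
    (hcom : ∀ g x : X, g * x * g⁻¹ * x⁻¹ ∈ Z) : Z.index ≤ 4 := by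
  set K := (fixW A).subgroupOf X with hK
  let incl : K →* fixW A :=
    { toFun := fun x => ⟨x.1.1, x.2⟩, map_one' := rfl, map_mul' := fun _ _ => rfl }
  let φ : K →* h.invol := (h.brHom ha).comp incl
  have hker : φ.ker ≤ Z.subgroupOf K := by
    intro x hx
    refine hC x.1 fun c hc => ?_
    have hxW : CentW A x.1.1 := x.2
    have h0 : br x.1.1 a = 1 := congrArg Subtype.val (MonoidHom.mem_ker.1 hx)
    have h1 : br x.1.1 c = 1 := by
      rcases hone c hc with hh | hh
      · rw [h.br_eq_of_sq_eq hxW hc (one_mem A) (by rw [hh, one_mul])]; simp [br]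
      · rw [h.br_eq_of_sq_eq hxW hc ha hh, h0]
    calc x.1.1 * c = br x.1.1 c * c * x.1.1 := by simp only [br]; group
      _ = c * x.1.1 := by rw [h1, one_mul]
  have hidx : Z.index ≤ (Z.subgroupOf K).index * K.index := by
    have h1 := Subgroup.relIndex_mul_index (inf_le_right : Z ⊓ K ≤ K)
    rw [Subgroup.inf_relIndex_right] at h1
    calc Z.index ≤ (Z ⊓ K).index := Subgroup.index_antitone inf_le_left
      _ = _ := h1.symm
  by_cases hX : X ≤ fixW A
  · have hK1 : K.index = 1 := by rw [hK, Subgroup.subgroupOf_eq_top.2 hX, Subgroup.index_top]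
    have h1 := index_le_of_range_le φ 1 (Z.subgroupOf K) hker
      (by rw [MonoidHom.range_one]; exact bot_le)
    have h2 : Nat.card ((1 : K →* h.invol).ker.map φ) ≤ Nat.card h.invol :=
      Subgroup.card_le_card_group _
    have := h.card_invol hE
    rw [hK1] at hidx; omega
  obtain ⟨g, hgX, hg⟩ := SetLike.not_le_iff_exists.1 hX
  obtain ⟨e, f, he, hf, he1, hf1, hef, hec, hgf⟩ := h.exists_swap hP hE (show ¬ CentW A g from hg)
  let D : h.invol →* h.invol := h.conjHom g * MonoidHom.id _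
  have hcA : g⁻¹ * a * g ∈ A := by
    have := h.normal a ha g⁻¹
    rwa [inv_inv] at this
  have hsqa : g⁻¹ * a * g * (g⁻¹ * a * g) = a * a := by
    rcases hone _ hcA with hh | hh
    · have h1 : g⁻¹ * (a * a) * g = 1 := by rw [← hh]; group
      have h2 : a * a = 1 := by
        calc a * a = g * (g⁻¹ * (a * a) * g) * g⁻¹ := by group
          _ = 1 := by rw [h1]; group
      rw [hh, h2]
    · exact hh
  have hδ : (D.comp φ).range ≤ (Z.subgroupOf K).map φ := by
    rintro _ ⟨x, rfl⟩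
    have hxW : CentW A x.1.1 := x.2
    have hcW : CentW A (g * x.1.1 * g⁻¹) := h.centW_conj hxW g
    let c : K := ⟨⟨g, hgX⟩ * x.1 * ⟨g, hgX⟩⁻¹ * x.1⁻¹, centW_mul hcW (centW_inv hxW)⟩
    refine ⟨c, hcom _ _, Subtype.ext ?_⟩
    show br (g * x.1.1 * g⁻¹ * x.1.1⁻¹) a = g * br x.1.1 a * g⁻¹ * br x.1.1 a
    have hi : br x.1.1⁻¹ a = br x.1.1 a := by
      have := congrArg Subtype.val (map_inv (h.brHom ha) (⟨x.1.1, hxW⟩ : fixW A))
      rw [h.invol_inv] at this
      exact this
    rw [h.br_mul hcW (centW_inv hxW) ha, hi, br_conj, h.br_eq_of_sq_eq hxW hcA ha hsqa]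
  have h1 := index_le_of_range_le φ (D.comp φ) (Z.subgroupOf K) hker hδ
  have h2 : Nat.card ((D.comp φ).ker.map φ) ≤ Nat.card D.ker :=
    Nat.card_le_card_of_injective _ (Subgroup.inclusion_injective (by
      rintro _ ⟨x, hx, rfl⟩; exact hx))
  have h3 : D.ker.index ≠ 1 := by
    rw [Ne, Subgroup.index_eq_one]
    intro htop
    have hm : (⟨f, hf⟩ : h.invol) ∈ D.ker := htop ▸ Subgroup.mem_top _
    have : g * f * g⁻¹ * f = 1 := congrArg Subtype.val (MonoidHom.mem_ker.1 hm)
    rw [hgf, mul_assoc, hf.2, mul_one] at this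
    exact he1 this
  have h4 := D.ker.index_mul_card
  have h5 := h.card_invol hE
  have h6 : D.ker.index ≠ 0 := Subgroup.index_ne_zero_of_finite
  have h7 := h.fixW_index hP hE X
  have h8 : Nat.card D.ker ≤ 2 := by
    have : 2 * Nat.card D.ker ≤ D.ker.index * Nat.card D.ker :=
      Nat.mul_le_mul_right _ (by omega)
    omega
  calc Z.index ≤ (Z.subgroupOf K).index * K.index := hidx
    _ ≤ 2 * 2 := Nat.mul_le_mul (by omega) h7

end IsFour

namespace Frame

variable {A : Subgroup P} {a b e f : P}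

theorem cent_of_br (F : Frame A a b e f) {s : P} (hs : CentW A s) (h1 : br s a = 1)
    (h2 : br s b = 1) : IsFour.Cent A s := by
  intro c hc
  have h3 : br s c = 1 := by
    rcases F.br_cases hs hc with ⟨-, k⟩ | ⟨-, k⟩ | ⟨-, k⟩ | ⟨-, k⟩ <;> simp [k, h1, h2]
  calc s * c = br s c * c * s := by simp only [br]; group
    _ = c * s := by rw [h3, one_mul]

theorem cent_sq (F : Frame A a b e f) {x : P} (hx : CentW A x) : IsFour.Cent A (x * x) :=
  F.cent_of_br (IsFour.centW_mul hx hx)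
    (by rw [F.four.br_mul hx hx F.ha]; exact (F.four.br_inW hx F.ha).2)
    (by rw [F.four.br_mul hx hx F.hb]; exact (F.four.br_inW hx F.hb).2)

/-- The pair of values of `br x` at `a` and `b`. -/
def pair (F : Frame A a b e f) : fixW A →* F.four.invol × F.four.invol :=
  (F.four.brHom F.ha).prod (F.four.brHom F.hb)

theorem conj_pair (F : Frame A a b e f) {g x : P} (hg : g * f * g⁻¹ = e * f) (hx : CentW A x) :
    br (g * x * g⁻¹) a = g * br x a * g⁻¹ ∧
      br (g * x * g⁻¹) b = g * (br x a * br x b) * g⁻¹ := by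
  have h := F.four
  have hA : ∀ c ∈ A, g⁻¹ * c * g ∈ A := fun c hc => by
    have := h.normal c hc g⁻¹
    rwa [inv_inv] at this
  have he : g⁻¹ * e * g = e := by rw [mul_assoc, ← F.central g, inv_mul_cancel_left]
  have hf : g⁻¹ * f * g = e * f := by
    have h1 : e * (g⁻¹ * f * g) = f := by
      calc e * (g⁻¹ * f * g) = (g⁻¹ * e * g) * (g⁻¹ * f * g) := by rw [he]
        _ = g⁻¹ * (e * f) * g := by group
        _ = f := by rw [← hg]; group
    calc g⁻¹ * f * g = (e * e) * (g⁻¹ * f * g) := by rw [F.inW_e.2, one_mul]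
      _ = e * f := by rw [mul_assoc, h1]
  have hsa : g⁻¹ * a * g * (g⁻¹ * a * g) = a * a := by
    calc g⁻¹ * a * g * (g⁻¹ * a * g) = g⁻¹ * (a * a) * g := by group
      _ = a * a := by rw [F.hea, he]
  have hsb : g⁻¹ * b * g * (g⁻¹ * b * g) = a * b * (a * b) := by
    calc g⁻¹ * b * g * (g⁻¹ * b * g) = g⁻¹ * (b * b) * g := by group
      _ = a * b * (a * b) := by rw [F.hfb, hf, F.sq_ab]
  refine ⟨?_, ?_⟩
  · rw [IsFour.br_conj, h.br_eq_of_sq_eq hx (hA a F.ha) F.ha hsa]
  · rw [IsFour.br_conj, h.br_eq_of_sq_eq hx (hA b F.hb) (mul_mem F.ha F.hb) hsb,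
      h.br_mul_right hx F.ha F.hb]

variable [Finite P]

/-- With all involutions central, no good element has a square root of its square. -/
theorem good_false (F : Frame A a b e f) (hP : IsPGroup 2 P) (hW : ∀ g : P, CentW A g)
    {x v : P} (h1 : br x a ≠ e) (h2 : br x b ≠ f) (h3 : br x a * br x b ≠ e * f)
    (hne : br x a ≠ 1 ∨ br x b ≠ 1) (hv : IsFour.Cent A v) (hxv : x * x = v * v) : False := by
  have h := F.four
  have hx : CentW A x := hW x
  have hgood : IsFour.Good A x := by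
    intro c hc hcc
    rcases F.br_cases hx hc with ⟨k1, -⟩ | ⟨k1, k2⟩ | ⟨k1, k2⟩ | ⟨k1, k2⟩
    · exact k1
    · rw [k2, k1] at hcc; exact absurd hcc h1
    · rw [k2, k1] at hcc; exact absurd hcc h2
    · rw [k2, k1] at hcc; exact absurd hcc h3
  obtain ⟨n, hn, hinv⟩ := h.exists_involution hP hx hgood hv hxv F.root
  have hbr : ∀ c ∈ A, br (x * n) c = br x c := fun c hc => by
    rw [h.br_mul hx (hW n) hc]
    have : br n c = 1 := by simp only [br]; rw [hn c hc, mul_inv_cancel_right, mul_inv_cancel]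
    rw [this, mul_one]
  refine h.no_involution hP F.noEight e f F.inW_e F.inW_f F.he1 F.hf1 F.hef (hW (x * n))
    ?_ ?_ ?_ hinv
  · rcases hne with hh | hh
    · exact ⟨a, F.ha, by rw [hbr a F.ha]; exact hh⟩
    · exact ⟨b, F.hb, by rw [hbr b F.hb]; exact hh⟩
  · intro c hc hcc
    rw [hbr c hc] at hcc
    exact hgood c hc hcc
  · intro g c hc
    have hc' : g⁻¹ * c * g ∈ A := by
      have := h.normal c hc g⁻¹
      rwa [inv_inv] at this
    have hsq : g⁻¹ * c * g * (g⁻¹ * c * g) = c * c := by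
      calc g⁻¹ * c * g * (g⁻¹ * c * g) = g⁻¹ * ((c * c) * g) := by group
        _ = g⁻¹ * (g * (c * c)) := by rw [hW g _ (h.inW_sq hc)]
        _ = c * c := inv_mul_cancel_left _ _
    rw [IsFour.br_conj, h.br_eq_of_sq_eq (hW (x * n)) hc' hc hsq,
      IsFour.conj_fix (hW g) (h.br_inW (hW (x * n)) hc)]

/-- The index bound in the main configuration. -/
theorem frame_bound (F : Frame A a b e f) (hP : IsPGroup 2 P)
    (X : Subgroup P) (Z : Subgroup X) (hC : ∀ x : X, IsFour.Cent A x.1 → x ∈ Z)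
    (hcom : ∀ g x : X, g * x * g⁻¹ * x⁻¹ ∈ Z) :
    Z.index ≤ 8 ∧ ((∀ x ∈ X, IsFour.Cent A (x * x) → ∃ v, IsFour.Cent A v ∧ v * v = x * x) →
      Z.index ≠ 8) := by
  classical
  have h := F.four
  set E : h.invol := ⟨e, F.inW_e⟩ with hE
  set F' : h.invol := ⟨f, F.inW_f⟩ with hF'
  have hcardW := h.card_invol F.noEight
  set K := (fixW A).subgroupOf X with hK
  let incl : K →* fixW A :=
    { toFun := fun x => ⟨x.1.1, x.2⟩, map_one' := rfl, map_mul' := fun _ _ => rfl }
  let φ := F.pair.comp incl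
  have hker : φ.ker ≤ Z.subgroupOf K := fun x hx =>
    hC x.1 (F.cent_of_br x.2
      (congrArg (fun q : h.invol × h.invol => (q.1 : P)) (MonoidHom.mem_ker.1 hx))
      (congrArg (fun q : h.invol × h.invol => (q.2 : P)) (MonoidHom.mem_ker.1 hx)))
  have hidx : Z.index ≤ (Z.subgroupOf K).index * K.index := by
    have h1 := Subgroup.relIndex_mul_index (inf_le_right : Z ⊓ K ≤ K)
    rw [Subgroup.inf_relIndex_right] at h1
    calc Z.index ≤ (Z ⊓ K).index := Subgroup.index_antitone inf_le_left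
      _ = _ := h1.symm
  have hmove : ∀ g : P, ¬ CentW A g → g * f * g⁻¹ = e * f := by
    intro g hg
    rcases F.cover _ (h.inW_conj F.inW_f g) with hh | hh | hh | hh
    · exact absurd (conj_eq_one_iff.1 hh) F.hf1
    · refine absurd ?_ F.hef
      calc e = g⁻¹ * e * g := by rw [mul_assoc, ← F.central g, inv_mul_cancel_left]
        _ = g⁻¹ * (g * f * g⁻¹) * g := by rw [hh]
        _ = f := by group
    · refine absurd (fun w hw => ?_) hg
      have hgf : g * f = f * g := mul_inv_eq_iff_eq_mul.1 hh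
      rcases F.cover w hw with rfl | rfl | rfl | rfl
      · simp
      · exact F.central g
      · exact hgf
      · rw [← mul_assoc, F.central g, mul_assoc, hgf, mul_assoc]
    · exact hh
  by_cases hX : X ≤ fixW A
  · have hK1 : K.index = 1 := by rw [hK, Subgroup.subgroupOf_eq_top.2 hX, Subgroup.index_top]
    have h1 := index_le_of_range_le φ 1 (Z.subgroupOf K) hker
      (by rw [MonoidHom.range_one]; exact bot_le)
    set S := F.pair.range with hS
    have hle : (1 : K →* h.invol × h.invol).ker.map φ ≤ S := by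
      rintro _ ⟨x, -, rfl⟩; exact ⟨incl x, rfl⟩
    have hStop : S ≠ ⊤ := by
      intro ht
      refine F.not_full hP fun u v hu hv => ?_
      obtain ⟨x, hx⟩ : ((⟨u, hu⟩, ⟨v, hv⟩) : h.invol × h.invol) ∈ S := ht ▸ Subgroup.mem_top _
      exact ⟨x.1, x.2, congrArg (fun q : h.invol × h.invol => (q.1 : P)) hx,
        congrArg (fun q : h.invol × h.invol => (q.2 : P)) hx⟩
    have h2 : Nat.card (h.invol × h.invol) ≤ 16 := by
      rw [Nat.card_prod]; exact Nat.mul_le_mul hcardW hcardW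
    have h3 := S.index_mul_card
    have h4 : 2 ≤ S.index := Subgroup.one_lt_index_of_ne_top hStop
    have h5 : Nat.card S ≤ 8 := by
      have : 2 * Nat.card S ≤ S.index * Nat.card S := Nat.mul_le_mul_right _ h4
      omega
    have h6 : Nat.card ((1 : K →* h.invol × h.invol).ker.map φ) ≤ Nat.card S :=
      Nat.card_le_card_of_injective _ (Subgroup.inclusion_injective hle)
    rw [hK1, mul_one] at hidx
    refine ⟨by omega, fun hroot h8 => ?_⟩
    have hSeq : (1 : K →* h.invol × h.invol).ker.map φ = S :=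
      Subgroup.eq_of_le_of_card_ge hle (by omega)
    have hS2 : S.index = 2 := by
      have : S.index * 8 ≤ 2 * 8 := by
        rw [show (8 : ℕ) = Nat.card S by omega]
        omega
      omega
    have key : ∀ q ∈ S, ∃ x v, CentW A x ∧ br x a = q.1.1 ∧ br x b = q.2.1 ∧
        IsFour.Cent A v ∧ x * x = v * v := by
      intro q hq
      rw [← hSeq] at hq
      obtain ⟨x, -, rfl⟩ := hq
      obtain ⟨v, hv, hv2⟩ := hroot x.1.1 x.1.2 (F.cent_sq x.2)
      exact ⟨x.1.1, v, x.2, rfl, rfl, hv, hv2.symm⟩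
    by_cases hW : ∀ g : P, CentW A g
    · have hsel : ((1, E) : h.invol × h.invol) ∈ S ∨ (F', 1) ∈ S ∨ (E * F', E * F') ∈ S ∨
          (E * F', E) ∈ S ∨ (F', E * F') ∈ S := by
        by_contra! hno
        obtain ⟨n1, n2, n3, n4, n5⟩ := hno
        have a1 := (Subgroup.mul_mem_iff_of_index_two hS2).2 (iff_of_false n1 n2)
        have a2 := (Subgroup.mul_mem_iff_of_index_two hS2).2 (iff_of_false n4 n5)
        have a3 : ((E * F', E) : h.invol × h.invol) * (F', E * F') =
            (1, E) * (F', 1) * (E * F', E * F') :=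
          Prod.ext (by simp only [Prod.fst_mul, one_mul]; exact mul_comm _ _)
            (by simp only [Prod.snd_mul, mul_one])
        rw [a3] at a2
        exact n3 (((Subgroup.mul_mem_iff_of_index_two hS2).1 a2).1 a1)
      have ne1 := F.ef_ne_one
      have ne2 := F.ef_ne_e
      have ne3 := F.ef_ne_f
      have hff := F.inW_f.2
      have hcomm : e * f = f * e := h.comm e F.inW_e.1 f F.inW_f.1
      rcases hsel with hq | hq | hq | hq | hq
      all_goals
        obtain ⟨x, v, -, k1, k2, hv, hxv⟩ := key _ hq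
      · change br x a = 1 at k1
        change br x b = e at k2
        refine F.good_false hP hW (k1 ▸ F.he1.symm) (k2 ▸ F.hef) ?_ (Or.inr (k2 ▸ F.he1)) hv hxv
        rw [k1, k2, one_mul]; exact ne2.symm
      · change br x a = f at k1
        change br x b = 1 at k2
        refine F.good_false hP hW (k1 ▸ F.hef.symm) (k2 ▸ F.hf1.symm) ?_ (Or.inl (k1 ▸ F.hf1)) hv hxv
        rw [k1, k2, mul_one]; exact ne3.symm
      · change br x a = e * f at k1
        change br x b = e * f at k2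
        refine F.good_false hP hW (k1 ▸ ne2) (k2 ▸ ne3) ?_ (Or.inl (k1 ▸ ne1)) hv hxv
        rw [k1, k2, (h.inW_mul F.inW_e F.inW_f).2]; exact ne1.symm
      · change br x a = e * f at k1
        change br x b = e at k2
        refine F.good_false hP hW (k1 ▸ ne2) (k2 ▸ F.hef) ?_ (Or.inl (k1 ▸ ne1)) hv hxv
        rw [k1, k2, hcomm, mul_assoc, F.inW_e.2, mul_one, ← hcomm]; exact ne3.symm
      · change br x a = f at k1
        change br x b = e * f at k2
        refine F.good_false hP hW (k1 ▸ F.hef.symm) (k2 ▸ ne3) ?_ (Or.inl (k1 ▸ F.hf1)) hv hxv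
        rw [k1, k2, hcomm, ← mul_assoc, hff, one_mul, ← hcomm]; exact ne2.symm
    obtain ⟨g, hg⟩ := not_forall.1 hW
    have hgf := hmove g hg
    have hge : g * e * g⁻¹ = e := by rw [F.central g, mul_inv_cancel_right]
    have hinvar : ∀ q ∈ S, ∀ r : h.invol × h.invol,
        r.1.1 = g * q.1.1 * g⁻¹ → r.2.1 = g * (q.1.1 * q.2.1) * g⁻¹ → r ∈ S := by
      rintro q ⟨x, rfl⟩ r hr1 hr2
      refine ⟨⟨g * x.1 * g⁻¹, h.centW_conj x.2 g⟩, Prod.ext (Subtype.ext ?_) (Subtype.ext ?_)⟩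
      · exact ((F.conj_pair hgf x.2).1).trans hr1.symm
      · exact ((F.conj_pair hgf x.2).2).trans hr2.symm
    have hEE : E * E = 1 := h.invol_sq E
    have h1E : ((1, E) : h.invol × h.invol) ∈ S := by
      have hprod : ((1, E) : h.invol × h.invol) = (E, 1) * (E, E) :=
        Prod.ext hEE.symm (one_mul E).symm
      by_cases hp : ((E, 1) : h.invol × h.invol) ∈ S
      · rw [hprod]
        refine mul_mem hp (hinvar _ hp _ ?_ ?_)
        · exact hge.symm
        · show e = g * (e * 1) * g⁻¹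
          rw [mul_one, hge]
      · rw [hprod]
        refine (Subgroup.mul_mem_iff_of_index_two hS2).2 (iff_of_false hp fun hee => hp ?_)
        refine hinvar _ hee _ ?_ ?_
        · exact hge.symm
        · show (1 : P) = g * (e * e) * g⁻¹
          rw [F.inW_e.2, mul_one, mul_inv_cancel]
    obtain ⟨x, v, hx, k1, k2, hv, hxv⟩ := key _ h1E
    exact F.n1_false hP hx k1 k2 hv hxv
  -- some element of `X` moves `f`
  obtain ⟨g, hgX, hg⟩ := SetLike.not_le_iff_exists.1 hX
  have hgf := hmove g hg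
  let σ := h.conjHom g
  let p1 : h.invol × h.invol →* h.invol := MonoidHom.fst _ _
  let p2 : h.invol × h.invol →* h.invol := MonoidHom.snd _ _
  let D : h.invol × h.invol →* h.invol × h.invol :=
    (σ.comp p1 * p1).prod (σ.comp (p1 * p2) * p2)
  have hδ : (D.comp φ).range ≤ (Z.subgroupOf K).map φ := by
    rintro _ ⟨x, rfl⟩
    have hxW : CentW A x.1.1 := x.2
    have hcW : CentW A (g * x.1.1 * g⁻¹) := h.centW_conj hxW g
    let c : K := ⟨⟨g, hgX⟩ * x.1 * ⟨g, hgX⟩⁻¹ * x.1⁻¹,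
      IsFour.centW_mul hcW (IsFour.centW_inv hxW)⟩
    refine ⟨c, hcom _ _, ?_⟩
    have e1 : φ c = F.pair ⟨_, hcW⟩ * (φ x)⁻¹ := by
      rw [← map_inv]
      exact map_mul F.pair ⟨_, hcW⟩ (incl x⁻¹)
    rw [e1]
    refine Prod.ext (Subtype.ext ?_) (Subtype.ext ?_)
    · show br (g * x.1.1 * g⁻¹) a * (br x.1.1 a)⁻¹ = g * br x.1.1 a * g⁻¹ * br x.1.1 a
      rw [(F.conj_pair hgf hxW).1, IsFour.inW_inv (h.br_inW hxW F.ha)]
    · show br (g * x.1.1 * g⁻¹) b * (br x.1.1 b)⁻¹ =
        g * (br x.1.1 a * br x.1.1 b) * g⁻¹ * br x.1.1 b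
      rw [(F.conj_pair hgf hxW).2, IsFour.inW_inv (h.br_inW hxW F.hb)]
  have h1 := index_le_of_range_le φ (D.comp φ) (Z.subgroupOf K) hker hδ
  have hle : (D.comp φ).ker.map φ ≤ D.ker := by rintro _ ⟨x, hx, rfl⟩; exact hx
  have h2 : Nat.card D.ker ≤ 4 := by
    refine le_trans (Nat.card_le_card_of_injective (fun q : D.ker => q.1.2) ?_) hcardW
    intro q q' hqq
    have key : ∀ q : D.ker, σ q.1.1 = q.1.1 ∧ q.1.1 = σ q.1.2 * q.1.2 := by
      intro q
      have k := MonoidHom.mem_ker.1 q.2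
      have k1 : σ q.1.1 * q.1.1 = 1 := congrArg Prod.fst k
      have k2 : σ (q.1.1 * q.1.2) * q.1.2 = 1 := congrArg Prod.snd k
      have k3 : σ q.1.1 = q.1.1 := by
        rw [eq_inv_of_mul_eq_one_left k1, h.invol_inv]
      refine ⟨k3, ?_⟩
      rw [map_mul, k3, mul_assoc] at k2
      rw [eq_inv_of_mul_eq_one_left k2, h.invol_inv]
    refine Subtype.ext (Prod.ext ?_ hqq)
    simp only at hqq
    rw [(key q).2, (key q').2, hqq]
  have h3 : Nat.card ((D.comp φ).ker.map φ) ≤ Nat.card D.ker :=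
    Nat.card_le_card_of_injective _ (Subgroup.inclusion_injective hle)
  have h7 := h.fixW_index hP F.noEight X
  have hub : Z.index ≤ Nat.card ((D.comp φ).ker.map φ) * 2 :=
    hidx.trans (Nat.mul_le_mul h1 h7)
  refine ⟨by omega, fun hroot h8 => ?_⟩
  have hEq : (D.comp φ).ker.map φ = D.ker := Subgroup.eq_of_le_of_card_ge hle (by omega)
  have hmem : ((1, E) : h.invol × h.invol) ∈ D.ker := by
    refine MonoidHom.mem_ker.2 (Prod.ext ?_ ?_)
    · show σ 1 * 1 = 1
      rw [map_one, one_mul]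
    · show σ (1 * E) * E = 1
      rw [one_mul]
      refine Subtype.ext ?_
      show g * e * g⁻¹ * e = 1
      rw [F.central g, mul_inv_cancel_right, F.inW_e.2]
  rw [← hEq] at hmem
  obtain ⟨x, -, hx⟩ := hmem
  obtain ⟨v, hv, hv2⟩ := hroot x.1.1 x.1.2 (F.cent_sq x.2)
  exact F.n1_false hP x.2 (congrArg (fun q : h.invol × h.invol => (q.1 : P)) hx)
    (congrArg (fun q : h.invol × h.invol => (q.2 : P)) hx) hv hv2.symm

end Frame

/-- Sections of exponent two have order at most 16. -/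
theorem relIndex_le_sixteen [Finite P] (hP : IsPGroup 2 P)
    (hE : ∀ B : Subgroup P, B.Normal → IsMulCommutative B → (∀ a ∈ B, a ^ 2 = 1) → Nat.card B ≤ 4)
    (X M : Subgroup P) (hsq : ∀ x ∈ X, x * x ∈ M) (hnorm : (M.subgroupOf X).Normal) :
    M.relIndex X ≤ 16 := by
  classical
  haveI : Fact (Nat.Prime 2) := ⟨Nat.prime_two⟩
  haveI := hnorm
  obtain ⟨A, h⟩ := exists_isFour (P := P)
  set M' := M.subgroupOf X with hM'
  set C' := (centA A).subgroupOf X with hC'
  set Z := C' ⊔ M' with hZ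
  obtain ⟨hr4, hr⟩ := h.cent_part hP hE X M hsq
  have hrel : M'.relIndex C' = M.relIndex (X ⊓ centA A) := by
    rw [hM', hC', ← Subgroup.inf_subgroupOf_left (centA A) X, Subgroup.relIndex_subgroupOf inf_le_left]
  have hmul : M.relIndex X = M'.relIndex C' * Z.index := by
    rw [← Subgroup.relIndex_sup_right (H := C') (K := M'), Subgroup.relIndex_mul_index le_sup_right]
    rfl
  have hcom : ∀ g x : X, g * x * g⁻¹ * x⁻¹ ∈ Z := by
    intro g x
    refine Subgroup.mem_sup_right ?_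
    have h1 : (g * x) * (g * x) ∈ M' := hsq _ (g * x).2
    have h2 : x⁻¹ * (g⁻¹ * g⁻¹) * x ∈ M' := by
      have := hnorm.conj_mem (g⁻¹ * g⁻¹) (hsq _ (g⁻¹).2) x⁻¹
      rwa [inv_inv] at this
    have h3 : x⁻¹ * x⁻¹ ∈ M' := hsq _ (x⁻¹).2
    have : g * x * g⁻¹ * x⁻¹ = (g * x) * (g * x) * (x⁻¹ * (g⁻¹ * g⁻¹) * x) * (x⁻¹ * x⁻¹) := by
      group
    rw [this]
    exact mul_mem (mul_mem h1 h2) h3
  have hC : ∀ x : X, IsFour.Cent A x.1 → x ∈ Z := fun x hx => Subgroup.mem_sup_left hx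
  rw [hmul, hrel]
  by_cases hsmall : ∃ a ∈ A, ∀ c ∈ A, c * c = 1 ∨ c * c = a * a
  · obtain ⟨a, ha, hone⟩ := hsmall
    exact Nat.mul_le_mul hr4 (h.small_bound hP hE ha hone X Z hC hcom)
  push_neg at hsmall
  obtain ⟨a0, ha0, ha01, -⟩ := hsmall 1 (one_mem A)
  obtain ⟨b0, hb0, hb01, hab⟩ := hsmall a0 ha0
  obtain ⟨e, he, he1, hec⟩ := h.exists_central hP (h.inW_sq ha0) ha01
  obtain ⟨f, hf, hf1, hef⟩ : ∃ f, InW A f ∧ f ≠ 1 ∧ e ≠ f := by
    by_cases hh : e = a0 * a0
    · exact ⟨_, h.inW_sq hb0, hb01, hh ▸ hab.symm⟩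
    · exact ⟨_, h.inW_sq ha0, ha01, hh⟩
  have hroots : ∀ w, InW A w → ∃ c ∈ A, c * c = w := by
    intro w hw
    rcases h.cover' hE (h.inW_sq ha0) (h.inW_sq hb0) ha01 hb01 hab.symm w hw with
      rfl | rfl | rfl | rfl
    · exact ⟨1, one_mem A, one_mul 1⟩
    · exact ⟨a0, ha0, rfl⟩
    · exact ⟨b0, hb0, rfl⟩
    · refine ⟨a0 * b0, mul_mem ha0 hb0, ?_⟩
      rw [mul_assoc, ← mul_assoc b0, h.comm b0 hb0 a0 ha0]; group
  obtain ⟨a, ha, hea⟩ := hroots e he
  obtain ⟨b, hb, hfb⟩ := hroots f hf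
  have F : Frame A a b e f :=
    ⟨h, ha, hb, hea, hfb, he1, hf1, hef, h.cover' hE he hf he1 hf1 hef, hec, hE⟩
  obtain ⟨hz8, hz⟩ := F.frame_bound hP X Z hC hcom
  have hpg : IsPGroup 2 X := hP.to_subgroup X
  obtain ⟨k, hk⟩ := hpg.index Z
  obtain ⟨l, hl⟩ : ∃ l, M.relIndex (X ⊓ centA A) = 2 ^ l :=
    (hP.to_subgroup (X ⊓ centA A)).index _
  by_cases h44 : Z.index = 8
  · have hne : M.relIndex (X ⊓ centA A) ≠ 4 := fun h4 => hz (fun x hx hxc => by
      obtain ⟨v, hv, hv2⟩ := hr h4 _ (hsq x hx) (mul_mem hx hx) hxc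
      exact ⟨v, hv, hv2⟩) h44
    have : M.relIndex (X ⊓ centA A) ≤ 2 := by
      rw [hl] at hr4 hne ⊢
      exact pow_two_step (k := 1) hr4 hne
    exact le_trans (Nat.mul_le_mul this hz8) le_rfl
  · have : Z.index ≤ 4 := by
      rw [hk] at hz8 h44 ⊢
      exact pow_two_step (k := 2) hz8 h44
    exact Nat.mul_le_mul hr4 this

end Cfsg.Agent.MacWilliams
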