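import Cfsg.Prelude.Def_CaseTheorems
import Cfsg.Agent.PGroup.Basic
import Mathlib

/-!
Maximal normal abelian subgroups of exponent dividing 4 in 2-groups: the omega lemma.
-/

set_option autoImplicit false

namespace Cfsg.Agent.MacWilliams

variable {P : Type*} [Group P]

/-- `A` is maximal among normal abelian subgroups of exponent dividing 4. -/
structure IsFour (A : Subgroup P) : Prop where
  normal : ∀ a ∈ A, ∀ g : P, g * a * g⁻¹ ∈ A
  comm : ∀ a ∈ A, ∀ b ∈ A, a * b = b * a
  exp : ∀ a ∈ A, a ^ 4 = 1
  maximal : ∀ B : Subgroup P, A ≤ B → B.Normal → (∀ a ∈ B, ∀ b ∈ B, a * b = b * a) →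
    (∀ a ∈ B, a ^ 4 = 1) → B ≤ A

theorem exists_isFour [Finite P] : ∃ A : Subgroup P, IsFour A := by
  classical
  let S : Set (Subgroup P) :=
    {B | B.Normal ∧ (∀ a ∈ B, ∀ b ∈ B, a * b = b * a) ∧ ∀ a ∈ B, a ^ 4 = 1}
  have hne : (⊥ : Subgroup P) ∈ S := ⟨inferInstance,
    fun a ha b hb => by rw [Subgroup.mem_bot.1 ha, Subgroup.mem_bot.1 hb],
    fun a ha => by rw [Subgroup.mem_bot.1 ha, one_pow]⟩
  obtain ⟨A, hA⟩ := (Set.toFinite S).exists_maximal ⟨⊥, hne⟩
  exact ⟨A, fun a ha g => hA.1.1.conj_mem a ha g, hA.1.2.1, hA.1.2.2,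
    fun B hAB h1 h2 h3 => hA.2 (show B ∈ S from ⟨h1, h2, h3⟩) hAB⟩

theorem four_eq (x : P) : x ^ 4 = x * x * (x * x) := by
  rw [show 4 = 2 + 2 from rfl, pow_add, pow_two]

namespace IsFour

variable {A : Subgroup P}

/-- Membership in the centralizer of `A`. -/
def Cent (A : Subgroup P) (x : P) : Prop := ∀ a ∈ A, x * a = a * x

theorem cent_of_mem (h : IsFour A) {a : P} (ha : a ∈ A) : Cent A a := fun b hb => h.comm a ha b hb

theorem cent_mul {x y : P} (hx : Cent A x) (hy : Cent A y) : Cent A (x * y) := fun a ha => by
  rw [mul_assoc, hy a ha, ← mul_assoc, hx a ha, mul_assoc]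

theorem cent_inv {x : P} (hx : Cent A x) : Cent A x⁻¹ := fun a ha => by
  have := hx a ha
  calc x⁻¹ * a = x⁻¹ * (a * x) * x⁻¹ := by group
    _ = x⁻¹ * (x * a) * x⁻¹ := by rw [this]
    _ = a * x⁻¹ := by group

theorem cent_conj (h : IsFour A) {x : P} (hx : Cent A x) (g : P) : Cent A (g * x * g⁻¹) := by
  intro a ha
  have h1 := hx _ (h.normal a ha g⁻¹)
  rw [inv_inv] at h1
  calc g * x * g⁻¹ * a = g * (x * (g⁻¹ * a * g)) * g⁻¹ := by group
    _ = g * ((g⁻¹ * a * g) * x) * g⁻¹ := by rw [h1]
    _ = a * (g * x * g⁻¹) := by group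

/-- Elements of order dividing 4 centralizing `A` lie in `A`. -/
theorem omega [Finite P] (h : IsFour A) (hP : IsPGroup 2 P) {x : P} (hx : Cent A x)
    (h4 : x ^ 4 = 1) : x ∈ A := by
  haveI : Fact (Nat.Prime 2) := ⟨Nat.prime_two⟩
  haveI : Group.IsNilpotent P := hP.isNilpotent
  suffices key : ∀ j : ℕ, ∀ x ∈ Subgroup.upperCentralSeries P j, Cent A x → x ^ 4 = 1 → x ∈ A from
    key (Group.nilpotencyClass P) x
      (by rw [Subgroup.upperCentralSeries_nilpotencyClass]; exact Subgroup.mem_top x) hx h4
  intro j
  induction j with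
  | zero =>
    intro x hxj _ _
    rw [Subgroup.upperCentralSeries_zero, Subgroup.mem_bot] at hxj
    rw [hxj]; exact one_mem A
  | succ j ih =>
    have step : ∀ x ∈ Subgroup.upperCentralSeries P (j + 1), Cent A x → x ^ 4 = 1 → x * x ∈ A →
        x ∈ A := by
      intro x hxj hx h4 hx2
      have mem_j : ∀ g : P, g * x * g⁻¹ * x⁻¹ ∈ Subgroup.upperCentralSeries P j := by
        intro g
        have h1 := (Subgroup.mem_upperCentralSeries_succ_iff.1 hxj) g
        rw [commutatorElement_def] at h1
        have h2 := inv_mem h1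
        simpa [mul_assoc] using h2
      have hd : ∀ i : ℕ, ∀ l : P, l ∈ Subgroup.upperCentralSeries P i →
          l ∈ Subgroup.upperCentralSeries P j → Cent A l →
          x * l * x⁻¹ * l⁻¹ ∈ A ∧ (x * l * x⁻¹ * l⁻¹) * (x * l * x⁻¹ * l⁻¹) = 1 := by
        intro i
        induction i with
        | zero =>
          intro l hl _ _
          rw [Subgroup.upperCentralSeries_zero, Subgroup.mem_bot] at hl
          simp [hl]
        | succ i ihi =>
          intro l hl hlj hlc
          set d := x * l * x⁻¹ * l⁻¹ with hddef
          have hdj : d ∈ Subgroup.upperCentralSeries P j :=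
            mul_mem ((inferInstance : (Subgroup.upperCentralSeries P j).Normal).conj_mem l hlj x)
              (inv_mem hlj)
          have hdi : d ∈ Subgroup.upperCentralSeries P i := by
            have h1 := (Subgroup.mem_upperCentralSeries_succ_iff.1 hl) x
            rw [commutatorElement_def] at h1
            have h2 := inv_mem h1
            simpa [hddef, mul_assoc] using h2
          have hdc : Cent A d := cent_mul (h.cent_conj hlc x) (cent_inv hlc)
          obtain ⟨heA, he2⟩ := ihi d hdi hdj hdc
          have hxx : x * x * l = l * (x * x) := (hlc _ hx2).symm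
          have hinv : x * d * x⁻¹ = d⁻¹ := by
            calc x * d * x⁻¹ = (x * x * l) * (x⁻¹ * l⁻¹ * x⁻¹) := by rw [hddef]; group
              _ = (l * (x * x)) * (x⁻¹ * l⁻¹ * x⁻¹) := by rw [hxx]
              _ = d⁻¹ := by rw [hddef]; group
          rw [hinv] at he2
          have hd4 : d ^ 4 = 1 := by
            have := congrArg (·⁻¹) he2
            simp only [inv_one, mul_inv_rev, inv_inv] at this
            calc d ^ 4 = d * d * (d * d) := four_eq d
              _ = 1 := this
          have hdA := ih d hdj hdc hd4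
          refine ⟨hdA, ?_⟩
          have hxd := hx d hdA
          calc d * d = d * (x * d * x⁻¹) := by rw [hxd]; group
            _ = 1 := by rw [hinv, mul_inv_cancel]
      have hconj : ∀ g : P, g * x * g⁻¹ * x⁻¹ ∈ A := by
        intro g
        set c := g * x * g⁻¹ * x⁻¹ with hcdef
        have hcc : Cent A c := cent_mul (h.cent_conj hx g) (cent_inv hx)
        obtain ⟨hdA, hd2⟩ := hd j c (mem_j g) (mem_j g) hcc
        set d := x * c * x⁻¹ * c⁻¹ with hddef
        refine ih c (mem_j g) hcc ?_
        have hg4 : (c * x) ^ 4 = 1 := by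
          have : c * x = g * x * g⁻¹ := by rw [hcdef]; group
          rw [this]
          calc (g * x * g⁻¹) ^ 4 = g * x ^ 4 * g⁻¹ := conj_pow
            _ = 1 := by rw [h4]; group
        have e1 : c * x * (c * x) = d * (c * c) * (x * x) := by
          calc c * x * (c * x) = (c * d) * c * (x * x) := by rw [hddef]; group
            _ = d * (c * c) * (x * x) := by rw [hcc d hdA]; group
        have hcd : (c * c) * d = d * (c * c) := (cent_mul hcc hcc) d hdA
        have hcx : (c * c) * (x * x) = (x * x) * (c * c) := (cent_mul hcc hcc) _ hx2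
        have hdx : d * (x * x) = (x * x) * d := h.comm _ hdA _ hx2
        have e2 : (c * x) ^ 4 = c ^ 4 := by
          calc (c * x) ^ 4 = (c * x * (c * x)) * (c * x * (c * x)) := four_eq _
            _ = d * ((c * c) * (x * x)) * d * ((c * c) * (x * x)) := by rw [e1]; group
            _ = d * (x * x) * ((c * c) * d) * ((c * c) * (x * x)) := by rw [hcx]; group
            _ = d * ((x * x) * d) * ((c * c) * ((c * c) * (x * x))) := by rw [hcd]; group
            _ = (d * d) * ((x * x) * ((c * c) * ((x * x) * (c * c)))) := by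
              rw [← hdx, hcx]; group
            _ = (x * x) * ((x * x) * (c * c)) * (c * c) := by rw [hd2, ← mul_assoc (c * c), hcx]; group
            _ = x ^ 4 * c ^ 4 := by rw [four_eq, four_eq]; simp only [mul_assoc]
            _ = c ^ 4 := by rw [h4, one_mul]
        rw [← e2]; exact hg4
      have hB : (Subgroup.closure ((A : Set P) ∪ {x})) ≤ A := by
        refine h.maximal _ (fun a ha => Subgroup.subset_closure (Or.inl ha)) ⟨?_⟩ ?_ ?_
        · intro b hb g
          induction hb using Subgroup.closure_induction with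
          | mem y hy =>
            rcases hy with hy | hy
            · exact Subgroup.subset_closure (Or.inl (h.normal y hy g))
            · rw [Set.mem_singleton_iff] at hy
              subst hy
              have : g * y * g⁻¹ = (g * y * g⁻¹ * y⁻¹) * y := by group
              rw [this]
              exact mul_mem (Subgroup.subset_closure (Or.inl (hconj g)))
                (Subgroup.subset_closure (Or.inr rfl))
          | one => simp
          | mul y z _ _ h1 h2 =>
            have : g * (y * z) * g⁻¹ = (g * y * g⁻¹) * (g * z * g⁻¹) := by group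
            rw [this]; exact mul_mem h1 h2
          | inv y _ h1 =>
            have : g * y⁻¹ * g⁻¹ = (g * y * g⁻¹)⁻¹ := by group
            rw [this]; exact inv_mem h1
        · have hc : IsMulCommutative (Subgroup.closure ((A : Set P) ∪ {x})) :=
            Subgroup.isMulCommutative_closure (by
              intro a ha b hb
              rcases ha with ha | ha <;> rcases hb with hb | hb
              · exact h.comm a ha b hb
              · rw [Set.mem_singleton_iff] at hb; subst hb; exact (hx a ha).symm
              · rw [Set.mem_singleton_iff] at ha; subst ha; exact hx b hb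
              · rw [Set.mem_singleton_iff] at ha hb; rw [ha, hb])
          exact fun a ha b hb => congrArg Subtype.val (hc.is_comm.comm ⟨a, ha⟩ ⟨b, hb⟩)
        · have hc : IsMulCommutative (Subgroup.closure ((A : Set P) ∪ {x})) :=
            Subgroup.isMulCommutative_closure (by
              intro a ha b hb
              rcases ha with ha | ha <;> rcases hb with hb | hb
              · exact h.comm a ha b hb
              · rw [Set.mem_singleton_iff] at hb; subst hb; exact (hx a ha).symm
              · rw [Set.mem_singleton_iff] at ha; subst ha; exact hx b hb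
              · rw [Set.mem_singleton_iff] at ha hb; rw [ha, hb])
          intro a ha
          induction ha using Subgroup.closure_induction with
          | mem y hy =>
            rcases hy with hy | hy
            · exact h.exp y hy
            · rw [Set.mem_singleton_iff] at hy; subst hy; exact h4
          | one => exact one_pow 4
          | mul y z hy hz h1 h2 =>
            rw [(show Commute y z from
              congrArg Subtype.val (hc.is_comm.comm ⟨y, hy⟩ ⟨z, hz⟩)).mul_pow, h1, h2, one_mul]
          | inv y _ h1 => rw [inv_pow, h1, inv_one]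
      exact hB (Subgroup.subset_closure (Or.inr rfl))
    intro x hxj hx h4
    refine step x hxj hx h4 (step (x * x) (mul_mem hxj hxj) (cent_mul hx hx) ?_ ?_)
    · rw [← pow_two, ← pow_mul, show 2 * 4 = 4 * 2 from rfl, pow_mul, h4, one_pow]
    · have : x * x * (x * x) = 1 := by
        calc x * x * (x * x) = x ^ 4 := (four_eq x).symm
          _ = 1 := h4
      rw [this]; exact one_mem A

/-- Elements with equal squares in the centralizer of `A` differ by an involution of `A`. -/
theorem sq_eq [Finite P] (h : IsFour A) (hP : IsPGroup 2 P) {u v : P} (hu : Cent A u)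
    (hv : Cent A v) (he : u * u = v * v) : u⁻¹ * v ∈ A ∧ (u⁻¹ * v) * (u⁻¹ * v) = 1 := by
  set z := u⁻¹ * v with hz
  have hzc : Cent A z := cent_mul (cent_inv hu) hv
  have hinv : u⁻¹ * z * u = z⁻¹ := by
    calc u⁻¹ * z * u = u⁻¹ * u⁻¹ * (v * v) * (v⁻¹ * u) := by rw [hz]; group
      _ = z⁻¹ := by rw [← he, hz]; group
  have hpow : ∀ m : ℕ, u⁻¹ * z ^ m * u = (z ^ m)⁻¹ := by
    intro m
    induction m with
    | zero => group
    | succ m ihm =>
      calc u⁻¹ * z ^ (m + 1) * u = (u⁻¹ * z * u) * (u⁻¹ * z ^ m * u) := by rw [pow_succ']; group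
        _ = z⁻¹ * (z ^ m)⁻¹ := by rw [hinv, ihm]
        _ = (z ^ (m + 1))⁻¹ := by rw [pow_succ, mul_inv_rev (z ^ m) z]
  have main : ∀ k : ℕ, z ^ 2 ^ k = 1 → z * z = 1 := by
    intro k
    induction k with
    | zero => intro hk; rw [pow_zero, pow_one] at hk; rw [hk, one_mul]
    | succ k ihk =>
      intro hk
      rcases k with _ | k
      · rw [pow_one, pow_two] at hk; exact hk
      apply ihk
      set w := z ^ 2 ^ k with hw
      have hw4 : w ^ 4 = 1 := by
        rw [hw, ← pow_mul, show 2 ^ k * 4 = 2 ^ (k + 2) by ring]; exact hk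
      have hwc : Cent A w := by
        rw [hw]
        generalize 2 ^ k = m
        induction m with
        | zero => intro a _; simp
        | succ m ihm => rw [pow_succ]; exact cent_mul ihm hzc
      have hwA := h.omega hP hwc hw4
      have h1 := hpow (2 ^ k)
      rw [← hw, mul_assoc, ← hu w hwA, ← mul_assoc, inv_mul_cancel, one_mul] at h1
      calc z ^ 2 ^ (k + 1) = w * w := by rw [hw, ← pow_add, pow_succ]; ring_nf
        _ = w * w⁻¹ := by rw [← h1]
        _ = 1 := mul_inv_cancel w
  obtain ⟨k, hk⟩ := hP z
  have h2 := main k hk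
  refine ⟨h.omega hP hzc ?_, h2⟩
  calc z ^ 4 = z * z * (z * z) := four_eq z
    _ = 1 := by rw [h2, one_mul]

end IsFour

end Cfsg.Agent.MacWilliams
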