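import Cfsg.Agent.MacWilliams.Basic

/-!
Actions on a maximal normal abelian subgroup of exponent 4: squares, involutions, fullness.
-/

set_option autoImplicit false

namespace Cfsg.Agent.MacWilliams

variable {P : Type*} [Group P] {A : Subgroup P}

/-- An involution of `A` or the identity. -/
def InW (A : Subgroup P) (w : P) : Prop := w ∈ A ∧ w * w = 1

/-- Centralizes the involutions of `A`. -/
def CentW (A : Subgroup P) (x : P) : Prop := ∀ w, InW A w → x * w = w * x

/-- The commutator with an element of `A`. -/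
def br (x a : P) : P := x * a * x⁻¹ * a⁻¹

namespace IsFour

theorem inW_one : InW A (1 : P) := ⟨one_mem A, one_mul 1⟩

theorem inW_mul (h : IsFour A) {u v : P} (hu : InW A u) (hv : InW A v) : InW A (u * v) := by
  refine ⟨mul_mem hu.1 hv.1, ?_⟩
  calc u * v * (u * v) = u * (v * u) * v := by group
    _ = u * (u * v) * v := by rw [h.comm _ hv.1 _ hu.1]
    _ = (u * u) * (v * v) := by group
    _ = 1 := by rw [hu.2, hv.2, one_mul]

theorem inW_conj (h : IsFour A) {u : P} (hu : InW A u) (g : P) : InW A (g * u * g⁻¹) := by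
  refine ⟨h.normal u hu.1 g, ?_⟩
  calc g * u * g⁻¹ * (g * u * g⁻¹) = g * (u * u) * g⁻¹ := by group
    _ = 1 := by rw [hu.2]; group

theorem inW_sq (h : IsFour A) {c : P} (hc : c ∈ A) : InW A (c * c) :=
  ⟨mul_mem hc hc, by rw [← four_eq, h.exp c hc]⟩

theorem inW_inv {u : P} (hu : InW A u) : u⁻¹ = u := inv_eq_of_mul_eq_one_right hu.2

theorem centW_of_cent {x : P} (hx : Cent A x) : CentW A x := fun w hw => hx w hw.1

theorem centW_mul {x y : P} (hx : CentW A x) (hy : CentW A y) : CentW A (x * y) := fun w hw => by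
  rw [mul_assoc, hy w hw, ← mul_assoc, hx w hw, mul_assoc]

theorem centW_inv {x : P} (hx : CentW A x) : CentW A x⁻¹ := fun w hw => by
  calc x⁻¹ * w = x⁻¹ * (w * x) * x⁻¹ := by group
    _ = x⁻¹ * (x * w) * x⁻¹ := by rw [hx w hw]
    _ = w * x⁻¹ := by group

theorem centW_conj (h : IsFour A) {x : P} (hx : CentW A x) (g : P) :
    CentW A (g * x * g⁻¹) := fun w hw => by
  have h1 := hx _ (h.inW_conj hw g⁻¹)
  rw [inv_inv] at h1
  calc g * x * g⁻¹ * w = g * (x * (g⁻¹ * w * g)) * g⁻¹ := by group
    _ = g * ((g⁻¹ * w * g) * x) * g⁻¹ := by rw [h1]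
    _ = w * (g * x * g⁻¹) := by group

theorem conj_fix {x w : P} (hx : CentW A x) (hw : InW A w) : x * w * x⁻¹ = w := by
  rw [hx w hw, mul_inv_cancel_right]

theorem br_inW (h : IsFour A) {x a : P} (hx : CentW A x) (ha : a ∈ A) : InW A (br x a) := by
  refine ⟨mul_mem (h.normal a ha x) (inv_mem ha), ?_⟩
  have hc : (x * a * x⁻¹) * a⁻¹ = a⁻¹ * (x * a * x⁻¹) :=
    h.comm _ (h.normal a ha x) _ (inv_mem ha)
  calc br x a * br x a = (x * a * x⁻¹ * a⁻¹) * (x * a * x⁻¹ * a⁻¹) := rfl
    _ = (x * a * x⁻¹) * (a⁻¹ * (x * a * x⁻¹)) * a⁻¹ := by group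
    _ = (x * a * x⁻¹) * ((x * a * x⁻¹) * a⁻¹) * a⁻¹ := by rw [hc]
    _ = (x * (a * a) * x⁻¹) * (a * a)⁻¹ := by group
    _ = 1 := by rw [conj_fix hx (h.inW_sq ha), mul_inv_cancel]

theorem br_mul (h : IsFour A) {x y a : P} (hx : CentW A x) (hy : CentW A y) (ha : a ∈ A) :
    br (x * y) a = br x a * br y a := by
  have hw := h.br_inW hy ha
  calc br (x * y) a = (x * br y a * x⁻¹) * br x a := by simp only [br]; group
    _ = br y a * br x a := by rw [conj_fix hx hw]
    _ = br x a * br y a := h.comm _ hw.1 _ (h.br_inW hx ha).1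

theorem br_mul_right (h : IsFour A) {x a c : P} (hx : CentW A x) (ha : a ∈ A) (hc : c ∈ A) :
    br x (a * c) = br x a * br x c := by
  have h1 : br x c * a⁻¹ = a⁻¹ * br x c := h.comm _ (h.br_inW hx hc).1 _ (inv_mem ha)
  calc br x (a * c) = (x * a * x⁻¹) * (br x c * a⁻¹) := by simp only [br]; group
    _ = (x * a * x⁻¹) * (a⁻¹ * br x c) := by rw [h1]
    _ = br x a * br x c := by simp only [br]; group

theorem br_eq_of_sq_eq (h : IsFour A) {x a c : P} (hx : CentW A x) (ha : a ∈ A) (hc : c ∈ A)
    (he : a * a = c * c) : br x a = br x c := by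
  have hw : InW A (a⁻¹ * c) := by
    refine ⟨mul_mem (inv_mem ha) hc, ?_⟩
    calc a⁻¹ * c * (a⁻¹ * c) = a⁻¹ * (c * a⁻¹) * c := by group
      _ = a⁻¹ * (a⁻¹ * c) * c := by rw [h.comm c hc _ (inv_mem ha)]
      _ = a⁻¹ * a⁻¹ * (c * c) := by group
      _ = 1 := by rw [← he]; group
  have h1 := h.br_mul_right hx ha hw.1
  rw [mul_inv_cancel_left] at h1
  rw [h1]
  have : br x (a⁻¹ * c) = 1 := by simp only [br]; rw [conj_fix hx hw, mul_inv_cancel]
  rw [this, mul_one]

theorem br_conj (g x a : P) : br (g * x * g⁻¹) a = g * br x (g⁻¹ * a * g) * g⁻¹ := by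
  simp only [br]; group

/-- `x` is good: no nontrivial involution of `A` is fixed by the map it induces. -/
def Good (A : Subgroup P) (x : P) : Prop := ∀ c ∈ A, br x c = c * c → c * c = 1

variable [Finite P]

/-- No involution acts goodly, nontrivially and centrally. -/
theorem no_involution (h : IsFour A) (hP : IsPGroup 2 P)
    (hE : ∀ B : Subgroup P, B.Normal → IsMulCommutative B → (∀ a ∈ B, a ^ 2 = 1) → Nat.card B ≤ 4)
    (e f : P) (he : InW A e) (hf : InW A f) (he1 : e ≠ 1) (hf1 : f ≠ 1) (hef : e ≠ f)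
    {x : P} (hx : CentW A x) (hne : ∃ a ∈ A, br x a ≠ 1) (hgood : Good A x)
    (hcen : ∀ g : P, ∀ a ∈ A, br (g * x * g⁻¹) a = br x a) : x * x ≠ 1 := by
  intro hxx
  have hnc : ¬ Cent A x := fun hc => by
    obtain ⟨a, ha, h1⟩ := hne
    exact h1 (by simp only [br]; rw [hc a ha, mul_inv_cancel_right, mul_inv_cancel])
  let B : Subgroup P :=
    { carrier := {y | InW A y ∨ InW A (y * x)}
      one_mem' := Or.inl inW_one
      inv_mem' := by
        rintro y (hy | hy)
        · left; rw [inW_inv hy]; exact hy
        · right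
          have : y⁻¹ * x = y * x := by
            calc y⁻¹ * x = x * (y * x)⁻¹ * x := by group
              _ = x * (y * x) * x := by rw [inW_inv hy]
              _ = (y * x) * x * x := by rw [hx _ hy]
              _ = y * x := by rw [mul_assoc (y * x), hxx, mul_one]
          rw [this]; exact hy
      mul_mem' := by
        intro y z hy hz
        rcases hy with hy | hy <;> rcases hz with hz | hz
        · exact Or.inl (h.inW_mul hy hz)
        · right; rw [mul_assoc]; exact h.inW_mul hy hz
        · right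
          have : y * z * x = (y * x) * z := by rw [mul_assoc, ← hx z hz, ← mul_assoc]
          rw [this]; exact h.inW_mul hy hz
        · left
          have : y * z = (y * x) * (z * x) := by
            calc y * z = y * ((z * x) * x) := by rw [mul_assoc z, hxx, mul_one]
              _ = y * (x * (z * x)) := by rw [hx _ hz]
              _ = (y * x) * (z * x) := by group
          rw [this]; exact h.inW_mul hy hz }
  have hmemx : ∀ y ∈ B, y * y = 1 ∧ ∀ z ∈ B, y * z = z * y := by
    have key : ∀ y ∈ B, ∃ w, InW A w ∧ (y = w ∨ y = w * x) := by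
      rintro y (hy | hy)
      · exact ⟨y, hy, Or.inl rfl⟩
      · exact ⟨y * x, hy, Or.inr (by rw [mul_assoc, hxx, mul_one])⟩
    intro y hy
    obtain ⟨w, hw, hyw⟩ := key y hy
    refine ⟨?_, fun z hz => ?_⟩
    · rcases hyw with rfl | rfl
      · exact hw.2
      · calc w * x * (w * x) = w * (x * w) * x := by group
          _ = (w * w) * (x * x) := by rw [hx w hw]; group
          _ = 1 := by rw [hw.2, hxx, one_mul]
    · obtain ⟨v, hv, hzv⟩ := key z hz
      have c1 : w * v = v * w := h.comm _ hw.1 _ hv.1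
      have c2 := hx v hv
      have c3 := hx w hw
      rcases hyw with rfl | rfl <;> rcases hzv with rfl | rfl
      · exact c1
      · rw [← mul_assoc, c1, mul_assoc, ← c3, ← mul_assoc]
      · rw [mul_assoc, c2, ← mul_assoc, c1, mul_assoc]
      · calc w * x * (v * x) = w * (x * v) * x := by group
          _ = (w * v) * (x * x) := by rw [c2]; group
          _ = (v * w) * (x * x) := by rw [c1]
          _ = v * (w * x) * x := by group
          _ = v * (x * w) * x := by rw [c3]
          _ = v * x * (w * x) := by group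
  have hxB : x ∈ B := Or.inr (by rw [hxx]; exact inW_one)
  have hnorm : B.Normal := by
    have hconjx : ∀ g : P, InW A (g * x * g⁻¹ * x) := by
      intro g
      set y := g * x * g⁻¹ with hy
      have hyW : CentW A y := h.centW_conj hx g
      have hyy : y * y = 1 := by
        calc y * y = g * (x * x) * g⁻¹ := by rw [hy]; group
          _ = 1 := by rw [hxx]; group
      set m := y * x with hm
      have hmc : Cent A m := fun a ha => by
        have h1 : br m a = 1 := by
          rw [hm, h.br_mul hyW hx ha, hcen g a ha]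
          exact (h.br_inW hx ha).2
        calc m * a = br m a * a * m := by simp only [br]; group
          _ = a * m := by rw [h1, one_mul]
      have hxi : x⁻¹ = x := inv_eq_of_mul_eq_one_right hxx
      have hyi : y⁻¹ = y := inv_eq_of_mul_eq_one_right hyy
      have hxm : ∀ k : ℕ, x * m ^ k * x⁻¹ = (m ^ k)⁻¹ := by
        have h1 : x * m * x⁻¹ = m⁻¹ := by
          calc x * m * x⁻¹ = x * y := by rw [hm]; group
            _ = m⁻¹ := by rw [hm, mul_inv_rev, hxi, hyi]
        intro k
        induction k with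
        | zero => group
        | succ k ihk =>
          calc x * m ^ (k + 1) * x⁻¹ = (x * m * x⁻¹) * (x * m ^ k * x⁻¹) := by rw [pow_succ']; group
            _ = m⁻¹ * (m ^ k)⁻¹ := by rw [h1, ihk]
            _ = (m ^ (k + 1))⁻¹ := by rw [pow_succ, mul_inv_rev (m ^ k) m]
      have main : ∀ k : ℕ, m ^ 2 ^ k = 1 → m * m = 1 := by
        intro k
        induction k with
        | zero => intro hk; rw [pow_zero, pow_one] at hk; rw [hk, one_mul]
        | succ k ihk =>
          intro hk
          rcases k with _ | k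
          · rw [pow_one, pow_two] at hk; exact hk
          apply ihk
          set w := m ^ 2 ^ k with hw
          have hw4 : w ^ 4 = 1 := by
            rw [hw, ← pow_mul, show 2 ^ k * 4 = 2 ^ (k + 2) by ring]; exact hk
          have hwc : Cent A w := by
            rw [hw]
            generalize 2 ^ k = n
            induction n with
            | zero => intro a _; simp
            | succ n ihn => rw [pow_succ]; exact cent_mul ihn hmc
          have hwA := h.omega hP hwc hw4
          have hb : br x w = w⁻¹ * w⁻¹ := by simp only [br]; rw [hw, hxm]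
          have hww : w * w * (w * w) = 1 := by rw [← four_eq]; exact hw4
          rw [show w⁻¹ * w⁻¹ = w * w by
            rw [← mul_inv_rev]; exact inv_eq_of_mul_eq_one_right hww] at hb
          calc m ^ 2 ^ (k + 1) = w * w := by rw [hw, ← pow_add, pow_succ]; ring_nf
            _ = 1 := hgood w hwA hb
      obtain ⟨k, hk⟩ := hP m
      have hmm := main k hk
      exact ⟨h.omega hP hmc (by rw [four_eq, hmm, one_mul]), hmm⟩
    refine ⟨fun y hy g => ?_⟩
    rcases hy with hy | hy
    · exact Or.inl (h.inW_conj hy g)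
    · right
      have : g * y * g⁻¹ * x = (g * (y * x) * g⁻¹) * (g * x * g⁻¹ * x) := by
        calc g * y * g⁻¹ * x = g * ((y * x) * x) * g⁻¹ * x := by rw [mul_assoc y, hxx, mul_one]
          _ = (g * (y * x) * g⁻¹) * (g * x * g⁻¹ * x) := by group
      rw [this]; exact h.inW_mul (h.inW_conj hy g) (hconjx g)
  have hcard := hE B hnorm
    ⟨⟨fun a b => Subtype.ext ((hmemx a a.2).2 b b.2)⟩⟩
    (fun a ha => by rw [pow_two]; exact (hmemx a ha).1)
  classical
  have hef1 : e * f ≠ 1 := fun h1 => hef (by
    have := eq_inv_of_mul_eq_one_left h1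
    rw [inW_inv hf] at this; exact this)
  have hxW : ¬ InW A x := fun hw => hnc (h.cent_of_mem hw.1)
  let S : Finset B := {⟨1, one_mem B⟩, ⟨e, Or.inl he⟩, ⟨f, Or.inl hf⟩,
    ⟨e * f, Or.inl (h.inW_mul he hf)⟩, ⟨x, hxB⟩}
  have hS : S.card = 5 := by
    have a1 : (1 : P) ≠ x := fun e' => hxW (e' ▸ inW_one)
    have a2 : e ≠ x := fun e' => hxW (e' ▸ he)
    have a3 : f ≠ x := fun e' => hxW (e' ▸ hf)
    have a4 : e * f ≠ x := fun e' => hxW (e' ▸ h.inW_mul he hf)
    simp [S, Subtype.ext_iff, Ne.symm he1, Ne.symm hf1, Ne.symm hef1, hef, a1, a2, a3, a4,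
      Ne.symm hf1, hf1, he1]
  haveI : Fintype B := Fintype.ofFinite B
  have := Finset.card_le_univ S
  rw [hS, ← Nat.card_eq_fintype_card] at this
  omega

/-- A good element whose square is a square in the centralizer lifts to an involution. -/
theorem exists_involution (h : IsFour A) (hP : IsPGroup 2 P) {x v : P} (hx : CentW A x)
    (hgood : Good A x) (hv : Cent A v) (hxv : x * x = v * v)
    (hW : ∀ w, InW A w → ∃ c ∈ A, c * c = w) :
    ∃ n, Cent A n ∧ x * n * (x * n) = 1 := by
  set v1 := x⁻¹ * v * x with hv1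
  have hv1c : Cent A v1 := by
    have := h.cent_conj hv x⁻¹
    rwa [inv_inv] at this
  have he : v1 * v1 = v * v := by
    calc v1 * v1 = x⁻¹ * (v * v) * x := by rw [hv1]; group
      _ = v * v := by rw [← hxv]; group
  obtain ⟨hdA, hd2⟩ := h.sq_eq hP (cent_inv hv) (cent_inv hv1c)
    (by rw [← mul_inv_rev, ← mul_inv_rev, he])
  rw [inv_inv] at hdA hd2
  set w := v * (v * v1⁻¹) * v⁻¹ with hw
  have hwW : InW A w := h.inW_conj ⟨hdA, hd2⟩ v
  have hsq : x * v⁻¹ * (x * v⁻¹) = w := by
    calc x * v⁻¹ * (x * v⁻¹) = (x * x) * (x⁻¹ * v⁻¹ * x) * v⁻¹ := by group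
      _ = w := by rw [hxv, hw, hv1]; group
  -- correct by an element of `A`
  set y := x * v⁻¹ with hy
  have hyW : CentW A y := centW_mul hx (centW_of_cent (cent_inv hv))
  have hbry : ∀ a ∈ A, br y a = br x a := fun a ha => by
    rw [hy, h.br_mul hx (centW_of_cent (cent_inv hv)) ha]
    have : br v⁻¹ a = 1 := by
      simp only [br]; rw [cent_inv hv a ha, mul_inv_cancel_right, mul_inv_cancel]
    rw [this, mul_one]
  have hsurj : ∃ c ∈ A, br x c * (c * c) = w := by
    -- the map `c² ↦ br x c * c²` is injective on the involutions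
    haveI : Finite {u // InW A u} := Finite.of_injective _ Subtype.val_injective
    let root : {u // InW A u} → P := fun u => (hW u.1 u.2).choose
    have hroot : ∀ u, root u ∈ A ∧ root u * root u = u.1 := fun u => (hW u.1 u.2).choose_spec
    let φ : {u // InW A u} → {u // InW A u} := fun u =>
      ⟨br x (root u) * (root u * root u),
        h.inW_mul (h.br_inW hx (hroot u).1) (h.inW_sq (hroot u).1)⟩
    have hinj : Function.Injective φ := by
      intro u u' he'
      obtain ⟨hc, hcu⟩ := hroot u
      obtain ⟨hc', hcu'⟩ := hroot u'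
      set c := root u
      set c' := root u'
      have he'' : br x c * (c * c) = br x c' * (c' * c') := congrArg Subtype.val he'
      have hcc : br x (c * c') = br x c * br x c' := h.br_mul_right hx hc hc'
      have hsqm : c * c' * (c * c') = (c * c) * (c' * c') := by
        rw [mul_assoc, ← mul_assoc c', h.comm c' hc' c hc]; group
      have h1 : br x (c * c') = (c * c') * (c * c') := by
        rw [hcc, hsqm]
        have b2 := (h.br_inW hx hc').2
        have c2 := (h.inW_sq hc).2
        calc br x c * br x c' = br x c * (c * c) * (c * c) * br x c' := by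
              rw [mul_assoc (br x c), c2, mul_one]
          _ = (c * c) * (br x c * (c * c)) * br x c' := by
              rw [h.comm _ (mul_mem (h.br_inW hx hc).1 (mul_mem hc hc)) _ (mul_mem hc hc)]
          _ = (c * c) * ((c' * c') * br x c') * br x c' := by
              rw [he'', h.comm _ (h.br_inW hx hc').1 _ (mul_mem hc' hc')]
          _ = c * c * (c' * c') * (br x c' * br x c') := by group
          _ = c * c * (c' * c') := by rw [b2, mul_one]
      have h2 := hgood _ (mul_mem hc hc') h1
      rw [hsqm, hcu, hcu'] at h2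
      exact Subtype.ext (by rw [eq_inv_of_mul_eq_one_left h2, inW_inv u'.2])
    obtain ⟨u, hu⟩ := (Finite.injective_iff_surjective.1 hinj) ⟨w, hwW⟩
    exact ⟨root u, (hroot u).1, congrArg Subtype.val hu⟩
  obtain ⟨c, hc, hcw⟩ := hsurj
  refine ⟨v⁻¹ * c, cent_mul (cent_inv hv) (h.cent_of_mem hc), ?_⟩
  have hyc0 : x * (v⁻¹ * c) = y * c := by rw [hy, mul_assoc]
  rw [hyc0]
  have hby := hbry c hc
  have hyc : y * c = br x c * c * y := by rw [← hby]; simp only [br]; group
  have hcb : c * br x c = br x c * c := h.comm _ hc _ (h.br_inW hx hc).1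
  calc y * c * (y * c) = y * c * (br x c * c * y) := by rw [← hyc]
    _ = y * (br x c * (c * c)) * y := by
      rw [← mul_assoc, mul_assoc y c, ← mul_assoc c, hcb]; group
    _ = (y * w * y⁻¹) * (y * y) := by rw [hcw]; group
    _ = w * w := by rw [conj_fix hyW hwW, hsq]
    _ = 1 := hwW.2

end IsFour

end Cfsg.Agent.MacWilliams
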