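import Cfsg.Agent.MacWilliams.Core

/-!
The group induced on `A ≅ C₄ × C₄` by the centralizer of its involutions is not everything.
-/

set_option autoImplicit false

namespace Cfsg.Agent.MacWilliams

variable {P : Type*} [Group P]

/-- The main configuration: `A ≅ C₄ × C₄` with a marked central involution `e`. -/
structure Frame (A : Subgroup P) (a b e f : P) : Prop where
  four : IsFour A
  ha : a ∈ A
  hb : b ∈ A
  hea : a * a = e
  hfb : b * b = f
  he1 : e ≠ 1
  hf1 : f ≠ 1
  hef : e ≠ f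
  cover : ∀ w, InW A w → w = 1 ∨ w = e ∨ w = f ∨ w = e * f
  central : ∀ g : P, g * e = e * g
  noEight : ∀ B : Subgroup P, B.Normal → IsMulCommutative B → (∀ x ∈ B, x ^ 2 = 1) →
    Nat.card B ≤ 4

namespace Frame

variable {A : Subgroup P} {a b e f : P}

theorem inW_e (F : Frame A a b e f) : InW A e := F.hea ▸ F.four.inW_sq F.ha

theorem inW_f (F : Frame A a b e f) : InW A f := F.hfb ▸ F.four.inW_sq F.hb

theorem sq_ab (F : Frame A a b e f) : a * b * (a * b) = e * f := by
  rw [← F.hea, ← F.hfb, mul_assoc, ← mul_assoc b, F.four.comm b F.hb a F.ha]; group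

theorem ef_ne_one (F : Frame A a b e f) : e * f ≠ 1 := fun h => F.hef (by
  have := eq_inv_of_mul_eq_one_left h
  rw [IsFour.inW_inv F.inW_f] at this; exact this)

theorem ef_ne_e (F : Frame A a b e f) : e * f ≠ e := fun h => F.hf1 (mul_eq_left.1 h)

theorem ef_ne_f (F : Frame A a b e f) : e * f ≠ f := fun h => F.he1 (mul_eq_right.1 h)

theorem root (F : Frame A a b e f) : ∀ w, InW A w → ∃ c ∈ A, c * c = w := by
  intro w hw
  rcases F.cover w hw with rfl | rfl | rfl | rfl
  · exact ⟨1, one_mem A, one_mul 1⟩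
  · exact ⟨a, F.ha, F.hea⟩
  · exact ⟨b, F.hb, F.hfb⟩
  · exact ⟨a * b, mul_mem F.ha F.hb, F.sq_ab⟩

/-- The values of `br x` are determined by the two values at `a` and `b`. -/
theorem br_cases (F : Frame A a b e f) {x c : P} (hx : CentW A x) (hc : c ∈ A) :
    (c * c = 1 ∧ br x c = 1) ∨ (c * c = e ∧ br x c = br x a) ∨
      (c * c = f ∧ br x c = br x b) ∨ (c * c = e * f ∧ br x c = br x a * br x b) := by
  rcases F.cover _ (F.four.inW_sq hc) with h | h | h | h
  · refine Or.inl ⟨h, ?_⟩
    rw [F.four.br_eq_of_sq_eq hx hc (one_mem A) (by rw [h, one_mul])]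
    simp [br]
  · exact Or.inr (Or.inl ⟨h, F.four.br_eq_of_sq_eq hx hc F.ha (by rw [h, F.hea])⟩)
  · exact Or.inr (Or.inr (Or.inl ⟨h, F.four.br_eq_of_sq_eq hx hc F.hb (by rw [h, F.hfb])⟩))
  · refine Or.inr (Or.inr (Or.inr ⟨h, ?_⟩))
    rw [F.four.br_eq_of_sq_eq hx hc (mul_mem F.ha F.hb) (by rw [h, F.sq_ab]),
      F.four.br_mul_right hx F.ha F.hb]

/-- An element inducing the transvection `f ↦ e` has no square root of its square in `C(A)`. -/
theorem n1_false [Finite P] (F : Frame A a b e f) (hP : IsPGroup 2 P) {x v : P} (hx : CentW A x)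
    (hxa : br x a = 1) (hxb : br x b = e) (hv : IsFour.Cent A v) (hxv : x * x = v * v) : False := by
  have h := F.four
  have hgood : IsFour.Good A x := by
    intro c hc hcc
    rcases F.br_cases hx hc with ⟨h1, -⟩ | ⟨h1, h2⟩ | ⟨h1, h2⟩ | ⟨h1, h2⟩
    · exact h1
    · rw [h2, h1, hxa] at hcc; exact absurd hcc.symm F.he1
    · rw [h2, h1, hxb] at hcc; exact absurd hcc F.hef
    · rw [h2, h1, hxa, hxb, one_mul] at hcc; exact absurd hcc.symm F.ef_ne_e
  obtain ⟨n, hn, hinv⟩ := h.exists_involution hP hx hgood hv hxv F.root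
  have hnW : CentW A n := IsFour.centW_of_cent hn
  have hyW : CentW A (x * n) := IsFour.centW_mul hx hnW
  have hbr : ∀ c ∈ A, br (x * n) c = br x c := fun c hc => by
    rw [h.br_mul hx hnW hc]
    have : br n c = 1 := by simp only [br]; rw [hn c hc, mul_inv_cancel_right, mul_inv_cancel]
    rw [this, mul_one]
  refine h.no_involution hP F.noEight e f F.inW_e F.inW_f F.he1 F.hf1 F.hef hyW
    ⟨b, F.hb, by rw [hbr b F.hb, hxb]; exact F.he1⟩ ?_ ?_ hinv
  · intro c hc hcc
    rw [hbr c hc] at hcc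
    exact hgood c hc hcc
  · intro g c hc
    set c' := g⁻¹ * c * g with hc'
    have hc'A : c' ∈ A := by
      have := h.normal c hc g⁻¹
      rwa [inv_inv] at this
    have hsq : c' * c' = g⁻¹ * (c * c) * g := by rw [hc']; group
    have hge : g * e * g⁻¹ = e := by rw [F.central g, mul_inv_cancel_right]
    have hge' : g⁻¹ * e * g = e := by rw [mul_assoc, ← F.central g, inv_mul_cancel_left]
    rw [IsFour.br_conj, hbr c' hc'A, hbr c hc]
    have val : ∀ d ∈ A, ((d * d = 1 ∨ d * d = e) → br x d = 1) ∧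
        (¬ (d * d = 1 ∨ d * d = e) → br x d = e) := by
      intro d hd
      rcases F.br_cases hx hd with ⟨h1, h2⟩ | ⟨h1, h2⟩ | ⟨h1, h2⟩ | ⟨h1, h2⟩
      · exact ⟨fun _ => h2, fun hne => absurd (Or.inl h1) hne⟩
      · exact ⟨fun _ => h2.trans hxa, fun hne => absurd (Or.inr h1) hne⟩
      · refine ⟨fun hor => ?_, fun _ => h2.trans hxb⟩
        rw [h1] at hor
        rcases hor with hh | hh
        exacts [absurd hh F.hf1, absurd hh.symm F.hef]
      · refine ⟨fun hor => ?_, fun _ => by rw [h2, hxa, hxb, one_mul]⟩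
        rw [h1] at hor
        rcases hor with hh | hh
        exacts [absurd hh F.ef_ne_one, absurd hh F.ef_ne_e]
    have hiff : (c' * c' = 1 ∨ c' * c' = e) ↔ (c * c = 1 ∨ c * c = e) := by
      have hcc : c * c = g * (c' * c') * g⁻¹ := by rw [hsq]; group
      constructor
      · rintro (hh | hh)
        · left; rw [hcc, hh]; group
        · right; rw [hcc, hh, hge]
      · rintro (hh | hh)
        · left; rw [hsq, hh]; group
        · right; rw [hsq, hh, hge']
    by_cases hd : c * c = 1 ∨ c * c = e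
    · rw [(val c' hc'A).1 (hiff.2 hd), (val c hc).1 hd]; group
    · rw [(val c' hc'A).2 (fun hh => hd (hiff.1 hh)), (val c hc).2 hd, hge]

/-- Not every map of the involutions is induced by the centralizer of the involutions. -/
theorem not_full [Finite P] (F : Frame A a b e f) (hP : IsPGroup 2 P)
    (hfull : ∀ u v, InW A u → InW A v → ∃ x, CentW A x ∧ br x a = u ∧ br x b = v) : False := by
  have h := F.four
  have we := F.inW_e
  have wf := F.inW_f
  have wef := h.inW_mul we wf
  obtain ⟨x, hx, hxa, hxb⟩ := hfull 1 e IsFour.inW_one we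
  obtain ⟨y, hy, hya, hyb⟩ := hfull f 1 wf IsFour.inW_one
  obtain ⟨z, hz, hza, hzb⟩ := hfull (e * f) e wef we
  have hbrcent : ∀ {s : P}, CentW A s → br s a = 1 → br s b = 1 → IsFour.Cent A s := by
    intro s hs h1 h2 c hc
    have h3 : br s c = 1 := by
      rcases F.br_cases hs hc with ⟨-, k⟩ | ⟨-, k⟩ | ⟨-, k⟩ | ⟨-, k⟩ <;> simp [k, h1, h2]
    calc s * c = br s c * c * s := by simp only [br]; group
      _ = c * s := by rw [h3, one_mul]
  set k := x * y * (y * x)⁻¹ with hk
  have hyxW : CentW A (y * x) := IsFour.centW_mul hy hx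
  have hkW : CentW A k := IsFour.centW_mul (IsFour.centW_mul hx hy) (IsFour.centW_inv hyxW)
  have hkc : IsFour.Cent A k := by
    intro c hc
    have e1 : k * (y * x) = x * y := by rw [hk, inv_mul_cancel_right]
    have e2 : br k c * br (y * x) c = br (x * y) c := by rw [← h.br_mul hkW hyxW hc, e1]
    rw [h.br_mul hy hx hc, h.br_mul hx hy hc,
      h.comm _ (h.br_inW hx hc).1 _ (h.br_inW hy hc).1] at e2
    have h3 : br k c = 1 := mul_eq_right.1 e2
    calc k * c = br k c * c * k := by simp only [br]; group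
      _ = c * k := by rw [h3, one_mul]
  -- conjugation by `k` on elements with square in `A`
  have hkn : ∀ n, IsFour.Cent A n → n * n ∈ A → k * n * k⁻¹ = n * (n * n * (n * n)) := by
    intro n hn hn2
    have img : ∀ s, CentW A s →
        ∃ c ∈ A, s * n * s⁻¹ = n * c ∧ c * c = br s (n * n) := by
      intro s hs
      obtain ⟨c, hc, hcc⟩ := F.root _ (h.br_inW hs hn2)
      have e1 : s * n * s⁻¹ * (s * n * s⁻¹) = n * c * (n * c) := by
        calc s * n * s⁻¹ * (s * n * s⁻¹) = br s (n * n) * (n * n) := by simp only [br]; group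
          _ = n * n * br s (n * n) := h.comm _ (h.br_inW hs hn2).1 _ hn2
          _ = n * (n * c) * c := by rw [← hcc]; group
          _ = n * (c * n) * c := by rw [hn c hc]
          _ = n * c * (n * c) := by group
      obtain ⟨hdA, hd2⟩ := h.sq_eq hP (IsFour.cent_mul hn (h.cent_of_mem hc))
        (h.cent_conj hn s) e1.symm
      refine ⟨c * ((n * c)⁻¹ * (s * n * s⁻¹)), mul_mem hc hdA, by group, ?_⟩
      set d := (n * c)⁻¹ * (s * n * s⁻¹)
      calc c * d * (c * d) = c * (d * c) * d := by group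
        _ = c * (c * d) * d := by rw [h.comm d hdA c hc]
        _ = (c * c) * (d * d) := by group
        _ = br s (n * n) := by rw [hd2, hcc, mul_one]
    obtain ⟨cx, hcx, hnx, hcx2⟩ := img x hx
    obtain ⟨cy, hcy, hny, hcy2⟩ := img y hy
    have e1 : x * y * n * (x * y)⁻¹ = n * (cx * cy * br x cy) := by
      calc x * y * n * (x * y)⁻¹ = (x * n * x⁻¹) * (br x cy * cy) := by
            have : x * y * n * (x * y)⁻¹ = x * (y * n * y⁻¹) * x⁻¹ := by group
            rw [this, hny]; simp only [br]; group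
        _ = n * (cx * cy * br x cy) := by
            rw [hnx, h.comm _ (h.br_inW hx hcy).1 _ hcy]; group
    have e2 : y * x * n * (y * x)⁻¹ = n * (cx * cy * br y cx) := by
      calc y * x * n * (y * x)⁻¹ = (y * n * y⁻¹) * (br y cx * cx) := by
            have : y * x * n * (y * x)⁻¹ = y * (x * n * x⁻¹) * y⁻¹ := by group
            rw [this, hnx]; simp only [br]; group
        _ = n * (cy * (br y cx * cx)) := by rw [hny]; group
        _ = n * (cx * cy * br y cx) := by
            rw [h.comm _ (h.br_inW hy hcx).1 _ hcx, ← mul_assoc cy, h.comm cy hcy cx hcx]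
    set m := cx * cy * br y cx with hm
    have hmA : m ∈ A := mul_mem (mul_mem hcx hcy) (h.br_inW hy hcx).1
    have e3 : k * n * k⁻¹ * m = n * (cx * cy * br x cy) := by
      rw [← e1]
      have : x * y * n * (x * y)⁻¹ = k * (y * x * n * (y * x)⁻¹) * k⁻¹ := by rw [hk]; group
      rw [this, e2]
      have hkm : m * k⁻¹ = k⁻¹ * m := (IsFour.cent_inv hkc m hmA).symm
      calc k * n * k⁻¹ * m = k * n * (m * k⁻¹) := by rw [hkm]; group
        _ = k * (n * m) * k⁻¹ := by group
    have hd : cx * cy * br x cy = n * n * (n * n) * m := by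
      have wy := h.br_inW hy hcx
      rw [hm, ← mul_assoc, h.comm _ (mul_mem hn2 hn2) _ (mul_mem hcx hcy),
        mul_assoc (cx * cy) _ (br y cx)]
      congr 1
      have v1 : ∀ {s c : P}, CentW A s → c ∈ A → c * c = 1 → br s c = 1 := fun {s c} hs hc hcc => by
        rw [h.br_eq_of_sq_eq hs hc (one_mem A) (by rw [hcc, one_mul])]; simp [br]
      have va : ∀ {s c : P}, CentW A s → c ∈ A → c * c = e → br s c = br s a :=
        fun {s c} hs hc hcc => h.br_eq_of_sq_eq hs hc F.ha (by rw [hcc, F.hea])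
      have vb : ∀ {s c : P}, CentW A s → c ∈ A → c * c = f → br s c = br s b :=
        fun {s c} hs hc hcc => h.br_eq_of_sq_eq hs hc F.hb (by rw [hcc, F.hfb])
      have vab : ∀ {s c : P}, CentW A s → c ∈ A → c * c = e * f → br s c = br s a * br s b :=
        fun {s c} hs hc hcc => by
          rw [h.br_eq_of_sq_eq hs hc (mul_mem F.ha F.hb) (by rw [hcc, F.sq_ab]),
            h.br_mul_right hs F.ha F.hb]
      rcases F.cover _ (h.inW_sq hn2) with u1 | u1 | u1 | u1 <;> rw [u1]
      · rw [v1 hx hn2 u1] at hcx2; rw [v1 hy hn2 u1] at hcy2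
        rw [v1 hx hcy hcy2, v1 hy hcx hcx2, one_mul]
      · rw [va hx hn2 u1, hxa] at hcx2; rw [va hy hn2 u1, hya] at hcy2
        rw [vb hx hcy hcy2, v1 hy hcx hcx2, hxb, mul_one]
      · rw [vb hx hn2 u1, hxb] at hcx2; rw [vb hy hn2 u1, hyb] at hcy2
        rw [v1 hx hcy hcy2, va hy hcx hcx2, hya, wf.2]
      · rw [vab hx hn2 u1, hxa, hxb, one_mul] at hcx2
        rw [vab hy hn2 u1, hya, hyb, mul_one] at hcy2
        rw [vb hx hcy hcy2, va hy hcx hcx2, hxb, hya, mul_assoc, wf.2, mul_one]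
    rw [hd, ← mul_assoc n] at e3
    exact mul_right_cancel e3
  -- no element outside `A` has square in `A`
  have hfix : ∀ n, IsFour.Cent A n → n * n ∈ A → k * n = n * k → n ∈ A := by
    intro n hn hn2 hc
    have h1 := hkn n hn hn2
    rw [hc, mul_inv_cancel_right] at h1
    exact h.omega hP hn (by rw [four_eq]; exact left_eq_mul.1 h1)
  have climb : ∀ (p : P → Prop),
      (∀ n, IsFour.Cent A n → p n → n * n ∈ A → n ∈ A) → (∀ n, p n → p (n * n)) →
      ∀ m n, IsFour.Cent A n → p n → n ^ 2 ^ m = 1 → n ∈ A := by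
    intro p h1 h2 m
    induction m with
    | zero => intro n _ _ hm; rw [pow_zero, pow_one] at hm; rw [hm]; exact one_mem A
    | succ m ihm =>
      intro n hn hp hm
      exact h1 n hn hp (ihm _ (IsFour.cent_mul hn hn) (h2 n hp)
        (by rw [← pow_two, ← pow_mul, ← pow_succ']; exact hm))
  have hkA : k ∈ A := by
    obtain ⟨m, hm⟩ := hP k
    exact climb (fun n => k * n = n * k) (fun n hn hp h2 => hfix n hn h2 hp)
      (fun n hp => by rw [← mul_assoc, hp, mul_assoc, hp, mul_assoc]) m k hkc rfl hm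
  have hNA : ∀ n, IsFour.Cent A n → n ∈ A := fun n hn => by
    obtain ⟨m, hm⟩ := hP n
    exact climb (fun _ => True) (fun n hn _ h2 => hfix n hn h2 (hn k hkA).symm)
      (fun _ _ => trivial) m n hn trivial hm
  -- the element over the fixed-point-free map of order three
  have zgood : ∀ c ∈ A, br z c = c * c → c * c = 1 := by
    intro c hc hcc
    rcases F.br_cases hz hc with ⟨h1, -⟩ | ⟨h1, h2⟩ | ⟨h1, h2⟩ | ⟨h1, h2⟩
    · exact h1
    · rw [h2, h1, hza] at hcc; exact absurd hcc F.ef_ne_e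
    · rw [h2, h1, hzb] at hcc; exact absurd hcc F.hef
    · rw [h2, h1, hza, hzb, mul_assoc, h.comm f wf.1 e we.1, ← mul_assoc, we.2, one_mul] at hcc
      exact absurd hcc.symm F.ef_ne_f
  have zinj : ∀ c ∈ A, br z c = 1 → c * c = 1 := by
    intro c hc hcc
    rcases F.br_cases hz hc with ⟨h1, -⟩ | ⟨h1, h2⟩ | ⟨h1, h2⟩ | ⟨h1, h2⟩
    · exact h1
    · rw [h2, hza] at hcc; exact absurd hcc F.ef_ne_one
    · rw [h2, hzb] at hcc; exact absurd hcc F.he1
    · rw [h2, hza, hzb, mul_assoc, h.comm f wf.1 e we.1, ← mul_assoc, we.2, one_mul] at hcc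
      exact absurd hcc F.hf1
  have sqA : ∀ {s : P}, CentW A s → s * s ∈ A := fun {s} hs => hNA _ (hbrcent
    (IsFour.centW_mul hs hs) (by rw [h.br_mul hs hs F.ha]; exact (h.br_inW hs F.ha).2)
    (by rw [h.br_mul hs hs F.hb]; exact (h.br_inW hs F.hb).2))
  have hzzW : InW A (z * z) := by
    refine ⟨sqA hz, zinj _ (sqA hz) ?_⟩
    simp only [br]; group
  have hmod : ∀ s, CentW A s → InW A (z * s * z⁻¹ * s⁻¹) := by
    intro s hs
    set c := z * s * z⁻¹ * s⁻¹ with hcdef
    have hcA : c ∈ A := by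
      have hcW : CentW A (z * s * z⁻¹) := h.centW_conj hs z
      have hb' : ∀ d ∈ A, br (z * s * z⁻¹) d = br s d := by
        intro d hd
        have e1 : z * s * z⁻¹ * z = z * s := inv_mul_cancel_right _ _
        have e2 : br (z * s * z⁻¹) d * br z d = br z d * br s d := by
          rw [← h.br_mul hcW hz hd, e1, h.br_mul hz hs hd]
        rw [h.comm _ (h.br_inW hz hd).1 _ (h.br_inW hs hd).1] at e2
        exact mul_right_cancel e2
      have hinv : ∀ d ∈ A, br s⁻¹ d = br s d := fun d hd => by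
        have e1 := h.br_mul (IsFour.centW_inv hs) hs hd
        rw [inv_mul_cancel, show br (1 : P) d = 1 by simp [br]] at e1
        rw [eq_inv_of_mul_eq_one_left e1.symm, IsFour.inW_inv (h.br_inW hs hd)]
      refine hNA c (hbrcent (IsFour.centW_mul hcW (IsFour.centW_inv hs)) ?_ ?_)
      · rw [h.br_mul hcW (IsFour.centW_inv hs) F.ha, hb' a F.ha, hinv a F.ha]
        exact (h.br_inW hs F.ha).2
      · rw [h.br_mul hcW (IsFour.centW_inv hs) F.hb, hb' b F.hb, hinv b F.hb]
        exact (h.br_inW hs F.hb).2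
    refine ⟨hcA, zgood c hcA ?_⟩
    have hzs : z * z * s = s * (z * z) := (hs _ hzzW).symm
    have e1 : z * c * z⁻¹ * c = 1 := by
      calc z * c * z⁻¹ * c = z * z * s * (z * z)⁻¹ * s⁻¹ := by rw [hcdef]; group
        _ = 1 := by rw [hzs]; group
    calc br z c = (z * c * z⁻¹ * c) * (c * c)⁻¹ := by simp only [br]; group
      _ = c * c := by rw [e1, one_mul, IsFour.inW_inv (h.inW_sq hcA)]
  set d := x * y * x⁻¹ * y⁻¹ with hd
  have hdA : d ∈ A := by
    have : d = k := by rw [hd, hk]; group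
    rw [this]; exact hkA
  have hd2 : d * d = 1 := by
    refine zinj d hdA ?_
    have hwx := hmod x hx
    have hwy := hmod y hy
    set u := z * x * z⁻¹ * x⁻¹
    set v := z * y * z⁻¹ * y⁻¹
    have e1 : z * d * z⁻¹ = (u * x) * (v * y) * (u * x)⁻¹ * (v * y)⁻¹ := by
      simp only [u, v, hd]; group
    have c1 := hx v hwy
    have c2 := hy u hwx
    have c3 := h.comm u hwx.1 v hwy.1
    have e2 : (u * x) * (v * y) = (u * v) * (x * y) := by
      calc (u * x) * (v * y) = u * (x * v) * y := by group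
        _ = (u * v) * (x * y) := by rw [c1]; group
    have e3 : (v * y) * (u * x) = (u * v) * (y * x) := by
      calc (v * y) * (u * x) = v * (y * u) * x := by group
        _ = (v * u) * (y * x) := by rw [c2]; group
        _ = (u * v) * (y * x) := by rw [c3]
    have e4 : z * d * z⁻¹ = (u * v) * d * (u * v)⁻¹ := by
      calc z * d * z⁻¹ = ((u * x) * (v * y)) * ((v * y) * (u * x))⁻¹ := by rw [e1]; group
        _ = _ := by rw [e2, e3, hd]; group
    simp only [br]
    rw [e4, h.comm (u * v) (mul_mem hwx.1 hwy.1) d hdA, mul_inv_cancel_right, mul_inv_cancel]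
  have hxxA := sqA hx
  have hcomm : y * (x * x) = x * x * y := by
    have e1 : x * x * y * (x * x)⁻¹ * y⁻¹ = (x * d * x⁻¹) * d := by rw [hd]; group
    rw [IsFour.conj_fix hx ⟨hdA, hd2⟩, hd2] at e1
    calc y * (x * x) = (x * x * y * (x * x)⁻¹ * y⁻¹) * (y * (x * x)) := by rw [e1, one_mul]
      _ = x * x * y := by group
  have hyx2 : br y (x * x) = 1 := by simp only [br]; rw [hcomm]; group
  have hxx2 : br x (x * x) = 1 := by simp only [br]; group
  have hxx4 : x * x * (x * x) = 1 := by
    rcases F.br_cases hy hxxA with ⟨h1, -⟩ | ⟨h1, h2⟩ | ⟨h1, h2⟩ | ⟨h1, h2⟩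
    · exact h1
    · rw [h2, hya] at hyx2; exact absurd hyx2 F.hf1
    all_goals
      rcases F.br_cases hx hxxA with ⟨k1, -⟩ | ⟨k1, k2⟩ | ⟨k1, k2⟩ | ⟨k1, k2⟩
      · exact k1
      · rw [h1] at k1
        first
          | exact absurd k1 F.ef_ne_e
          | exact absurd k1.symm F.hef
      all_goals
        rw [k2] at hxx2
        simp only [hxa, hxb, one_mul] at hxx2
        exact absurd hxx2 F.he1
  obtain ⟨c, hc, hcc⟩ := F.root _ ⟨hxxA, hxx4⟩
  exact F.n1_false hP hx hxa hxb (h.cent_of_mem hc) hcc.symm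

end Frame

end Cfsg.Agent.MacWilliams
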